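import Mathlib
import Cfsg.Agent.Solvable.MinNormal

/-!
Fixed spaces of elements moving the summands of a system of imprimitivity.
-/

set_option autoImplicit false

open Module

namespace CfsgLib.FixedHalf

universe u v w

variable {G : Type u} [Group G] [Finite G]

/-- In a solvable group an element of prime order `p ≥ 5` outside the core of a maximal subgroup fixes
at most a third of the cosets. -/
theorem fixed_cosets_le [Group.IsSolvable G] {p : ℕ} (hp : p.Prime) (hp5 : 4 < p) (M : Subgroup G)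
    (hM : IsCoatom M) {x : G} (hxp : x ^ p = 1) (hxM : x ∉ M.normalCore) :
    3 * Nat.card {y : G ⧸ M // x • y = y} ≤ Nat.card (G ⧸ M) := by
  classical
  set K := M.normalCore with hK
  let f : G →* G ⧸ K := QuotientGroup.mk' K
  have hf : Function.Surjective f := QuotientGroup.mk'_surjective K
  have hKM : K ≤ M := M.normalCore_le
  set Mb := M.map f with hMb
  have hMbc : Mb.comap f = M := by
    rw [hMb, Subgroup.comap_map_eq, QuotientGroup.ker_mk', sup_eq_left.2 hKM]
  have hcoreb : Mb.normalCore = ⊥ := by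
    have h2 : Mb.normalCore.comap f ≤ K := (Subgroup.normal_le_normalCore).2
      ((Subgroup.comap_mono Mb.normalCore_le).trans hMbc.le)
    rw [eq_bot_iff, ← Subgroup.map_comap_eq_self_of_surjective hf Mb.normalCore,
      ← QuotientGroup.map_mk'_self K]
    exact Subgroup.map_mono h2
  haveI : Nontrivial (G ⧸ K) := by
    rw [QuotientGroup.nontrivial_iff]
    exact fun h => hM.1 (top_le_iff.1 (h ▸ hKM))
  haveI : Group.IsSolvable (G ⧸ K) := Group.isSolvable_of_surjective hf
  obtain ⟨N, r, t, hNn, hNne, hNmin, hNab, hr, ht, hNcard, hNexp⟩ :=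
    CfsgLib.Solvable.exists_minimal_normal_of_solvable (G := G ⧸ K)
  haveI := hNn
  have hcomm : ∀ a ∈ N, ∀ b ∈ N, a * b = b * a := fun a ha b hb =>
    congrArg Subtype.val (hNab.is_comm.comm ⟨a, ha⟩ ⟨b, hb⟩)
  have hNM : ¬ N ≤ Mb := fun h => hNne (le_bot_iff.1 (((Subgroup.normal_le_normalCore).2 h).trans hcoreb.le))
  have hsup : N ⊔ Mb = ⊤ := by
    have h1 : M < N.comap f ⊔ M := lt_of_le_of_ne le_sup_right fun h => hNM (by
      have h2 : N.comap f ≤ M := le_sup_left.trans h.ge
      rw [← Subgroup.map_comap_eq_self_of_surjective hf N]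
      exact Subgroup.map_mono h2)
    rw [← Subgroup.map_comap_eq_self_of_surjective hf N, hMb, ← Subgroup.map_sup, hM.2 _ h1,
      Subgroup.map_top_of_surjective f hf]
  have hinf : N ⊓ Mb = ⊥ := by
    haveI : (N ⊓ Mb).Normal := by
      refine Subgroup.normalizer_eq_top_iff.1 (top_le_iff.1 (hsup ▸ sup_le ?_ ?_))
      · intro a ha
        rw [Subgroup.mem_normalizer_iff]
        intro b
        constructor
        · intro hb
          rwa [hcomm a ha b hb.1, mul_inv_cancel_right]
        · intro hb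
          have hbN : b ∈ N := by simpa [mul_assoc] using hNn.conj_mem _ hb.1 a⁻¹
          rwa [hcomm a ha b hbN, mul_inv_cancel_right] at hb
      · intro a ha
        rw [Subgroup.mem_normalizer_iff]
        intro b
        refine ⟨fun hb => ⟨hNn.conj_mem b hb.1 a, Mb.mul_mem (Mb.mul_mem ha hb.2) (Mb.inv_mem ha)⟩, fun hb => ?_⟩
        refine ⟨by simpa [mul_assoc] using hNn.conj_mem _ hb.1 a⁻¹, ?_⟩
        simpa [mul_assoc] using Mb.mul_mem (Mb.mul_mem (Mb.inv_mem ha) hb.2) ha
    exact le_bot_iff.1 (((Subgroup.normal_le_normalCore).2 inf_le_right).trans hcoreb.le)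
  let χ : N → G ⧸ M := fun a => ((Function.surjInv (f := ⇑f) hf (a : G ⧸ K) : G) : G ⧸ M)
  have hrel : ∀ g h : G, (g : G ⧸ M) = (h : G ⧸ M) ↔ (f g)⁻¹ * f h ∈ Mb := fun g h => by
    exact (QuotientGroup.eq.trans (Subgroup.ext_iff.1 hMbc (g⁻¹ * h)).symm).trans (by
      rw [Subgroup.mem_comap, map_mul, map_inv])
  have hχ : Function.Bijective χ := by
    constructor
    · intro a b h
      rw [hrel, Function.surjInv_eq hf, Function.surjInv_eq hf] at h
      have h1 : (a : G ⧸ K)⁻¹ * b ∈ N ⊓ Mb := Subgroup.mem_inf.2 ⟨mul_mem (inv_mem a.2) b.2, h⟩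
      rw [hinf, Subgroup.mem_bot, inv_mul_eq_one] at h1
      exact Subtype.ext h1
    · intro y
      obtain ⟨g, rfl⟩ := QuotientGroup.mk_surjective y
      obtain ⟨a, ha, m, hm, ham⟩ : ∃ a ∈ N, ∃ m ∈ Mb, a * m = f g :=
        Subgroup.mem_sup_of_normal_left.1 (hsup ▸ Subgroup.mem_top _)
      refine ⟨⟨a, ha⟩, (hrel _ _).2 ?_⟩
      rw [Function.surjInv_eq hf, ← ham, inv_mul_cancel_left]
      exact hm
  have hact : ∀ a b : N, x • χ a = χ b ↔ (b : G ⧸ K)⁻¹ * f x * a ∈ Mb := fun a b => by
    show ((x * Function.surjInv hf (a : G ⧸ K) : G) : G ⧸ M) = _ ↔ _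
    rw [eq_comm, hrel, map_mul, Function.surjInv_eq hf, Function.surjInv_eq hf, mul_assoc]
  rcases isEmpty_or_nonempty {y : G ⧸ M // x • y = y} with hemp | ⟨y₀, hy₀⟩
  · simp
  obtain ⟨a₀, rfl⟩ := hχ.2 y₀
  set xb := (a₀ : G ⧸ K)⁻¹ * f x * a₀ with hxb
  have hxbM : xb ∈ Mb := (hact a₀ a₀).1 hy₀
  have hfix : ∀ b : N, x • χ (a₀ * b) = χ (a₀ * b) ↔ xb * b = b * xb := fun b => by
    rw [hact, Subgroup.coe_mul]
    have h1 : ((a₀ : G ⧸ K) * b)⁻¹ * f x * ((a₀ : G ⧸ K) * b) = (b : G ⧸ K)⁻¹ * xb * b := by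
      rw [hxb]; group
    rw [h1]
    constructor
    · intro h
      have h2 : (b : G ⧸ K)⁻¹ * (xb * b * xb⁻¹) ∈ N ⊓ Mb := by
        refine Subgroup.mem_inf.2 ⟨mul_mem (inv_mem b.2) (hNn.conj_mem _ b.2 xb), ?_⟩
        simpa [mul_assoc] using mul_mem h (inv_mem hxbM)
      rw [hinf, Subgroup.mem_bot, inv_mul_eq_one] at h2
      exact (mul_inv_eq_iff_eq_mul.1 h2.symm)
    · intro h
      rw [mul_assoc, h, inv_mul_cancel_left]
      exact hxbM
  let C : Subgroup N := (Subgroup.centralizer ({xb} : Set (G ⧸ K))).subgroupOf N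
  have hCcard : Nat.card {y : G ⧸ M // x • y = y} = Nat.card C := by
    refine (Nat.card_congr (Equiv.ofBijective (fun b : C => (⟨χ (a₀ * (b : N)), ?_⟩ : {y : G ⧸ M // x • y = y}))
      ⟨?_, ?_⟩)).symm
    · exact (hfix b).2 (Subgroup.mem_centralizer_singleton_iff.1 b.2).symm
    · intro b c h
      exact Subtype.ext (mul_left_cancel (hχ.1 (congrArg Subtype.val h)))
    · rintro ⟨y, hy⟩
      obtain ⟨a, rfl⟩ := hχ.2 y
      refine ⟨⟨a₀⁻¹ * a, ?_⟩, Subtype.ext (by simp)⟩
      refine Subgroup.mem_centralizer_singleton_iff.2 ((hfix (a₀⁻¹ * a)).1 ?_).symm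
      rwa [mul_inv_cancel_left]
  rw [hCcard, ← Nat.card_congr (Equiv.ofBijective χ hχ), ← Subgroup.card_mul_index C, mul_comm 3]
  refine Nat.mul_le_mul_left _ ?_
  have hxbp : xb ^ p = 1 := by
    have h1 := map_pow (MulAut.conj (a₀ : G ⧸ K)⁻¹) (f x) p
    rw [MulAut.conj_apply, MulAut.conj_apply, inv_inv, ← map_pow, hxp, map_one, mul_one, inv_mul_cancel] at h1
    exact h1.symm
  have hxb1 : xb ≠ 1 := fun h => hxM (by
    rw [hxb, mul_eq_one_iff_eq_inv, mul_eq_left] at h
    · exact (QuotientGroup.eq_one_iff x).1 h)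
  have hCtop : C ≠ ⊤ := by
    intro htop
    refine hxb1 ?_
    have hc : ∀ v ∈ N, v * xb = xb * v := fun v hv =>
      Subgroup.mem_centralizer_singleton_iff.1 (htop ▸ Subgroup.mem_top (⟨v, hv⟩ : N) :
        (⟨v, hv⟩ : N) ∈ C)
    set D := Mb ⊓ Subgroup.centralizer (N : Set (G ⧸ K)) with hD
    haveI : D.Normal := by
      refine Subgroup.normalizer_eq_top_iff.1 (top_le_iff.1 (hsup ▸ sup_le ?_ ?_))
      · intro a ha
        rw [Subgroup.mem_normalizer_iff]
        intro b
        constructor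
        · intro hb
          rwa [Subgroup.mem_centralizer_iff.1 hb.2 a ha, mul_inv_cancel_right]
        · intro hb
          have h1 := Subgroup.mem_centralizer_iff.1 hb.2 a ha
          have h2 : a * b * a⁻¹ = b := by
            calc a * b * a⁻¹ = a⁻¹ * (a * (a * b * a⁻¹)) := by group
              _ = a⁻¹ * (a * b * a⁻¹ * a) := by rw [h1]
              _ = b := by group
          rwa [h2] at hb
      · intro a ha
        have ha' : a ∈ Subgroup.normalizer (Subgroup.centralizer (N : Set (G ⧸ K)) : Set (G ⧸ K)) :=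
          (Subgroup.normalizer_eq_top_iff.2 inferInstance).ge (Subgroup.mem_top a)
        rw [Subgroup.mem_normalizer_iff]
        intro b
        exact and_congr ((Subgroup.mul_mem_cancel_right Mb (inv_mem ha)).trans
          (Subgroup.mul_mem_cancel_left Mb ha)).symm (Subgroup.mem_normalizer_iff.1 ha' b)
    have h1 : xb ∈ D := ⟨hxbM, Subgroup.mem_centralizer_iff.2 hc⟩
    have h2 : D ≤ ⊥ := ((Subgroup.normal_le_normalCore).2 inf_le_left).trans hcoreb.le
    exact Subgroup.mem_bot.1 (h2 h1)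
  have h2 : 1 < C.index := Subgroup.one_lt_index_of_ne_top hCtop
  by_contra hlt
  have hidx : C.index = 2 := by omega
  have hr2 : r = 2 := by
    have h3 : 2 ∣ r ^ t := hNcard ▸ hidx ▸ C.index_dvd_card
    exact ((Nat.prime_dvd_prime_iff_eq Nat.prime_two hr).1 (Nat.prime_two.dvd_of_dvd_pow h3)).symm
  refine hCtop (eq_top_iff.2 fun v _ => ?_)
  by_contra hv
  let σ : ℕ → N := fun i => ⟨xb ^ i * v * (xb ^ i)⁻¹, hNn.conj_mem _ v.2 _⟩
  set a := v⁻¹ * σ 1 with ha
  have hσC : σ 1 ∉ C := by
    intro h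
    refine hv ?_
    rw [Subgroup.mem_subgroupOf, Subgroup.mem_centralizer_singleton_iff] at h ⊢
    simp only [σ, pow_one] at h
    calc (v : G ⧸ K) * xb = xb⁻¹ * (xb * v * xb⁻¹ * xb) * xb := by group
      _ = xb⁻¹ * (xb * (xb * v * xb⁻¹)) * xb := by rw [h]
      _ = _ := by group
  have haC : a ∈ C := (Subgroup.mul_mem_iff_of_index_two hidx).2 ⟨fun h => absurd (inv_mem_iff.1 h) hv,
    fun h => absurd h hσC⟩
  have hax : (a : G ⧸ K) * xb = xb * a := Subgroup.mem_centralizer_singleton_iff.1 haC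
  have hiter : ∀ i : ℕ, xb ^ i * v = (v : G ⧸ K) * (a : G ⧸ K) ^ i * xb ^ i := by
    intro i
    induction i with
    | zero => simp
    | succ i ih =>
      have h1 : xb * v = (v : G ⧸ K) * a * xb := by
        rw [ha]; simp [σ]
      rw [pow_succ' xb, mul_assoc, ih, ← mul_assoc, ← mul_assoc, h1, pow_succ', mul_assoc _ xb,
        ← ((show Commute (a : G ⧸ K) xb from hax).pow_left i).eq]
      group
  have h5 := hiter p
  rw [hxbp, one_mul, mul_one, left_eq_mul] at h5
  have h6 : (a : G ⧸ K) ^ 2 = 1 := hr2 ▸ hNexp _ a.2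
  have ha1 : (a : G ⧸ K) = 1 := by
    obtain ⟨m, hm⟩ := hp.odd_of_ne_two (by omega)
    rwa [hm, pow_succ, pow_mul, h6, one_pow, one_mul] at h5
  refine hv ?_
  rw [Subgroup.mem_subgroupOf, Subgroup.mem_centralizer_singleton_iff]
  have h7 := hiter 1
  rw [pow_one, pow_one, ha1, mul_one] at h7
  exact h7.symm

variable {k : Type w} [Field k] {V : Type v} [AddCommGroup V] [Module k V]

/-- An element fixing at most a third of a system of summands fixes less than half of the space. -/
theorem fixed_lt_of_blocks [FiniteDimensional k V] [Nontrivial V] (ρ : G →* Module.End k V) {p : ℕ}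
    (hp : p.Prime) (hp5 : 4 < p) {x : G} (hxp : x ^ p = 1) {Ω : Type*} [Finite Ω] [MulAction G Ω]
    [MulAction.IsPretransitive G Ω] (P : Ω → Module.End k V) (hP2 : ∀ y, P y * P y = P y)
    (hP0 : ∀ y z, y ≠ z → P y * P z = 0) (hsum : ∀ [Fintype Ω], ∑ y, P y = 1)
    (hρ : ∀ g y, ρ g * P y = P (g • y) * ρ g)
    (hfix : 3 * Nat.card {y : Ω // x • y = y} ≤ Nat.card Ω) :
    2 * finrank k (LinearMap.ker (ρ x - 1)) < finrank k V := by
  classical
  letI : Fintype Ω := Fintype.ofFinite Ω
  have hinv : ∀ g : G, Function.Surjective (ρ g) := fun g v => ⟨ρ g⁻¹ v, by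
    rw [← Module.End.mul_apply, ← map_mul, mul_inv_cancel, map_one, Module.End.one_apply]⟩
  have hinj : ∀ g : G, Function.Injective (ρ g) := fun g a b h => by
    have h1 := congrArg (ρ g⁻¹) h
    simpa only [← Module.End.mul_apply, ← map_mul, inv_mul_cancel, map_one, Module.End.one_apply] using h1
  haveI : Nonempty Ω := by
    by_contra h
    haveI := not_nonempty_iff.1 h
    have h1 := hsum
    rw [Fintype.sum_empty] at h1
    exact zero_ne_one h1
  obtain ⟨y₀⟩ := ‹Nonempty Ω›
  set c := finrank k (LinearMap.range (P y₀)) with hc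
  have hrank : ∀ y, finrank k (LinearMap.range (P y)) = c := by
    intro y
    obtain ⟨g, rfl⟩ := MulAction.exists_smul_eq G y₀ y
    have h1 : LinearMap.range (P (g • y₀)) = (LinearMap.range (P y₀)).map (ρ g) := by
      rw [← LinearMap.range_comp, ← Module.End.mul_eq_comp, hρ, Module.End.mul_eq_comp,
        LinearMap.range_comp_of_range_eq_top _ (LinearMap.range_eq_top.2 (hinv g))]
    rw [h1, hc]
    exact (Submodule.equivMapOfInjective (ρ g) (hinj g) _).finrank_eq.symm
  let Φ : V →ₗ[k] Π y, LinearMap.range (P y) := LinearMap.pi fun y => (P y).rangeRestrict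
  have hΦ : Function.Bijective Φ := by
    constructor
    · intro a b h
      have h1 : ∀ y, P y a = P y b := fun y => congrArg Subtype.val (congrFun h y)
      rw [← Module.End.one_apply (R := k) a, ← Module.End.one_apply (R := k) b, ← hsum]
      simp only [LinearMap.sum_apply, h1]
    · intro f
      refine ⟨∑ z, (f z : V), funext fun y => Subtype.ext ?_⟩
      show P y (∑ z, (f z : V)) = f y
      rw [map_sum, Finset.sum_eq_single y]
      · obtain ⟨v, hv⟩ := (f y).2
        rw [← hv, ← Module.End.mul_apply, hP2]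
      · intro z _ hz
        obtain ⟨v, hv⟩ := (f z).2
        rw [← hv, ← Module.End.mul_apply, hP0 y z (Ne.symm hz), LinearMap.zero_apply]
      · simp
  have hdim : finrank k V = Nat.card Ω * c := by
    rw [(LinearEquiv.ofBijective Φ hΦ).finrank_eq, Module.finrank_pi_fintype]
    simp [hrank, Nat.card_eq_fintype_card]
  let O := MulAction.orbitRel.Quotient (Subgroup.zpowers x) Ω
  letI : Fintype O := Fintype.ofFinite O
  let res : LinearMap.ker (ρ x - 1) →ₗ[k] Π ω : O, LinearMap.range (P ω.out) :=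
    LinearMap.pi fun ω => (P ω.out).rangeRestrict.comp (LinearMap.ker (ρ x - 1)).subtype
  have hstep : ∀ v ∈ LinearMap.ker (ρ x - 1), ∀ y, P (x • y) v = ρ x (P y v) := by
    intro v hv y
    rw [LinearMap.mem_ker, LinearMap.sub_apply, Module.End.one_apply, sub_eq_zero] at hv
    conv_lhs => rw [← hv]
    rw [← Module.End.mul_apply, ← hρ, Module.End.mul_apply]
  have hres : Function.Injective res := by
    rw [injective_iff_map_eq_zero]
    intro v hv
    refine Subtype.ext ?_
    suffices h0 : (∑ y, P y) (v : V) = 0 by rwa [hsum, Module.End.one_apply] at h0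
    rw [LinearMap.sum_apply]
    refine Finset.sum_eq_zero fun y _ => ?_
    obtain ⟨g, hg⟩ : ∃ g : Subgroup.zpowers x, g • (Quotient.mk'' y : O).out = y :=
      MulAction.mem_orbit_iff.1 (MulAction.mem_orbit_symm.1 (MulAction.orbitRel_apply.1
        (Quotient.exact (Quotient.out_eq (Quotient.mk'' y : O)))))
    obtain ⟨i, hi⟩ : ∃ i : ℕ, x ^ i = (g : G) := mem_powers_iff_mem_zpowers.2 g.2
    rw [← hg, show g • (Quotient.mk'' y : O).out = x ^ i • (Quotient.mk'' y : O).out by rw [hi]; rfl]
    clear hg hi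
    induction i with
    | zero =>
      rw [pow_zero, one_smul]
      exact congrArg Subtype.val (congrFun hv (Quotient.mk'' y : O))
    | succ i ih => rw [pow_succ', mul_smul, hstep _ v.2, ih, map_zero]
  have hCle : finrank k (LinearMap.ker (ρ x - 1)) ≤ Nat.card O * c := by
    refine (LinearMap.finrank_le_finrank_of_injective hres).trans ?_
    rw [Module.finrank_pi_fintype]
    simp [hrank, Nat.card_eq_fintype_card]
  -- counting orbits
  have hcases : ∀ ω : O, Nat.card (MulAction.orbit (Subgroup.zpowers x) ω.out) = p ∨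
      (Nat.card (MulAction.orbit (Subgroup.zpowers x) ω.out) = 1 ∧ x • ω.out = ω.out) := by
    intro ω
    haveI : Nonempty (MulAction.orbit (Subgroup.zpowers x) ω.out) := ⟨⟨_, MulAction.mem_orbit_self _⟩⟩
    have h1 : Nat.card (MulAction.orbit (Subgroup.zpowers x) ω.out) ∣ p := by
      rw [Nat.card_congr (MulAction.orbitEquivQuotientStabilizer (Subgroup.zpowers x) ω.out)]
      exact (Subgroup.index_dvd_card _).trans
        (by rw [Nat.card_zpowers]; exact orderOf_dvd_of_pow_eq_one hxp)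
    rcases hp.eq_one_or_self_of_dvd _ h1 with h2 | h2
    · refine Or.inr ⟨h2, ?_⟩
      haveI := (Nat.card_eq_one_iff_unique.1 h2).1
      exact congrArg Subtype.val (Subsingleton.elim
        (⟨(⟨x, Subgroup.mem_zpowers x⟩ : Subgroup.zpowers x) • ω.out, MulAction.mem_orbit _ _⟩ :
          MulAction.orbit (Subgroup.zpowers x) ω.out) ⟨ω.out, MulAction.mem_orbit_self _⟩)
    · exact Or.inl h2
  set F := Finset.univ.filter fun ω : O => x • ω.out = ω.out with hF
  have hFle : F.card ≤ Nat.card {y : Ω // x • y = y} := by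
    rw [Nat.card_eq_fintype_card, Fintype.card_subtype]
    refine Finset.card_le_card_of_injOn (fun ω => ω.out) ?_ fun a _ b _ h => Quotient.out_injective h
    intro ω hω
    simpa [hF] using hω
  have hsumcard : Nat.card Ω = ∑ ω : O, Nat.card (MulAction.orbit (Subgroup.zpowers x) ω.out) := by
    rw [Nat.card_congr (MulAction.selfEquivSigmaOrbits (Subgroup.zpowers x) Ω), Nat.card_sigma]
  have hcount : p * Nat.card O ≤ Nat.card Ω + (p - 1) * F.card := by
    rw [hsumcard, Nat.card_eq_fintype_card, ← Finset.card_univ, mul_comm, ← smul_eq_mul, ← Finset.sum_const,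
      mul_comm, ← smul_eq_mul, ← Finset.sum_const]
    calc ∑ _ω : O, p ≤ ∑ ω : O, (Nat.card (MulAction.orbit (Subgroup.zpowers x) ω.out) +
          if x • ω.out = ω.out then p - 1 else 0) := Finset.sum_le_sum fun ω _ => by
          rcases hcases ω with h | ⟨h, hx⟩
          · omega
          · rw [if_pos hx]; omega
      _ = _ := by rw [Finset.sum_add_distrib, Finset.sum_ite, Finset.sum_const_zero, add_zero]
  have hc0 : 0 < c := by
    have := finrank_pos (R := k) (M := V)
    rw [hdim] at this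
    exact Nat.pos_of_ne_zero fun h => by simp [h] at this
  have hΩ : 0 < Nat.card Ω := Nat.card_pos
  rw [hdim]
  refine lt_of_le_of_lt (Nat.mul_le_mul_left 2 hCle) ?_
  rw [← mul_assoc]
  refine Nat.mul_lt_mul_of_pos_right ?_ hc0
  obtain ⟨q, rfl⟩ : ∃ q, p = q + 1 := ⟨p - 1, by omega⟩
  rw [Nat.add_sub_cancel] at hcount
  have h5 : q * F.card ≤ q * Nat.card {y : Ω // x • y = y} := Nat.mul_le_mul_left q hFle
  have h6 : q * (3 * Nat.card {y : Ω // x • y = y}) ≤ q * Nat.card Ω := Nat.mul_le_mul_left q hfix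
  by_contra hcon
  push Not at hcon
  have h7 : (q + 1) * Nat.card Ω ≤ (q + 1) * (2 * Nat.card O) := Nat.mul_le_mul_left _ hcon
  have h8 : 5 * Nat.card Ω ≤ (q + 1) * Nat.card Ω := Nat.mul_le_mul_right _ hp5
  nlinarith

end CfsgLib.FixedHalf
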