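import Mathlib

/-!
The projections onto the weight spaces of a finite abelian group of operators of order prime to the
characteristic, over an algebraically closed field.
-/

set_option autoImplicit false

open Module

namespace CfsgLib.FixedHalf

universe u v w

variable {k : Type w} [Field k] {V : Type v} [AddCommGroup V] [Module k V] {A : Type u} [CommGroup A]
  [Finite A]

/-- The projection onto the weight space of `φ`. -/
noncomputable def wproj (L : A →* Module.End k V) (φ : A →* kˣ) : Module.End k V :=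
  letI := Fintype.ofFinite A
  (Nat.card A : k)⁻¹ • ∑ a : A, (((φ a)⁻¹ : kˣ) : k) • L a

theorem apply_mul_wproj (L : A →* Module.End k V) (φ : A →* kˣ) (b : A) :
    L b * wproj L φ = (φ b : k) • wproj L φ := by
  letI := Fintype.ofFinite A
  simp only [wproj]
  rw [mul_smul_comm, smul_comm (φ b : k) (Nat.card A : k)⁻¹ (∑ a : A, (((φ a)⁻¹ : kˣ) : k) • L a)]
  simp only [Finset.mul_sum, Finset.smul_sum (r := (φ b : k))]
  congr 1
  refine Fintype.sum_equiv (Equiv.mulLeft b) _ _ fun a => ?_
  rw [Equiv.coe_mulLeft, mul_smul_comm, ← map_mul, smul_smul, map_mul φ, mul_inv, Units.val_mul,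
    Units.mul_inv_cancel_left]

theorem wproj_mul_apply (L : A →* Module.End k V) (φ : A →* kˣ) (b : A) :
    wproj L φ * L b = (φ b : k) • wproj L φ := by
  rw [← apply_mul_wproj L φ b]
  simp only [wproj, mul_smul_comm, smul_mul_assoc, Finset.mul_sum, Finset.sum_mul, ← map_mul, mul_comm b]

theorem wproj_mul_self (hA : (Nat.card A : k) ≠ 0) (L : A →* Module.End k V) (φ : A →* kˣ) :
    wproj L φ * wproj L φ = wproj L φ := by
  letI := Fintype.ofFinite A
  conv_lhs => arg 1; rw [wproj]
  rw [smul_mul_assoc, Finset.sum_mul]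
  simp only [smul_mul_assoc, apply_mul_wproj, smul_smul, Units.inv_mul, one_smul, Finset.sum_const,
    Finset.card_univ, ← Nat.cast_smul_eq_nsmul k]
  rw [← Nat.card_eq_fintype_card, inv_mul_cancel₀ hA, one_smul]

theorem wproj_mul_of_ne (L : A →* Module.End k V) {φ ψ : A →* kˣ} (h : φ ≠ ψ) :
    wproj L φ * wproj L ψ = 0 := by
  letI := Fintype.ofFinite A
  conv_lhs => arg 1; rw [wproj]
  rw [smul_mul_assoc, Finset.sum_mul]
  simp only [smul_mul_assoc, apply_mul_wproj, smul_smul, ← Finset.sum_smul]
  have hne : (φ⁻¹ * ψ : A →* kˣ) ≠ 1 := fun h' => h (inv_mul_eq_one.1 h')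
  have h0 : ∑ a : A, (((φ a)⁻¹ : kˣ) : k) * (ψ a : k) = 0 := by
    refine Eq.trans ?_ (sum_hom_units_eq_zero ((Units.coeHom k).comp (φ⁻¹ * ψ)) fun h' =>
      hne (MonoidHom.ext fun a => Units.ext (DFunLike.congr_fun h' a)))
    exact Finset.sum_congr rfl fun a _ => rfl
  rw [h0, mul_zero, zero_smul]

variable [IsAlgClosed k]

theorem finite_characters (hA : (Nat.card A : k) ≠ 0) : Finite (A →* kˣ) := by
  haveI : NeZero ((Monoid.exponent A : ℕ) : k) := ⟨fun h => by
    obtain ⟨c, hc⟩ := Group.exponent_dvd_nat_card (G := A)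
    rw [hc, Nat.cast_mul, h, zero_mul] at hA
    exact hA rfl⟩
  haveI : HasEnoughRootsOfUnity k (Monoid.exponent A) := inferInstance
  exact Finite.of_equiv A (CommGroup.monoidHom_mulEquiv_of_hasEnoughRootsOfUnity A k).some.symm.toEquiv

theorem sum_wproj (hA : (Nat.card A : k) ≠ 0) [Fintype (A →* kˣ)] (L : A →* Module.End k V) :
    ∑ φ, wproj L φ = 1 := by
  letI := Fintype.ofFinite A
  haveI : NeZero ((Monoid.exponent A : ℕ) : k) := ⟨fun h => by
    obtain ⟨c, hc⟩ := Group.exponent_dvd_nat_card (G := A)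
    rw [hc, Nat.cast_mul, h, zero_mul] at hA
    exact hA rfl⟩
  haveI : HasEnoughRootsOfUnity k (Monoid.exponent A) := inferInstance
  simp only [wproj, ← Finset.smul_sum]
  rw [Finset.sum_comm, Finset.sum_eq_single_of_mem (1 : A) (Finset.mem_univ _)]
  · simp only [map_one, inv_one, Units.val_one, one_smul, Finset.sum_const, Finset.card_univ,
      ← Nat.cast_smul_eq_nsmul k]
    rw [← Nat.card_eq_fintype_card, CommGroup.card_monoidHom_of_hasEnoughRootsOfUnity, smul_smul,
      inv_mul_cancel₀ hA, one_smul]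
  · intro a _ ha
    rw [← Finset.sum_smul]
    obtain ⟨χ, hχ⟩ := CommGroup.exists_apply_ne_one_of_hasEnoughRootsOfUnity A k ha
    set S := ∑ φ : A →* kˣ, (((φ a)⁻¹ : kˣ) : k) with hS'
    have hS : (((χ a)⁻¹ : kˣ) : k) * S = S := by
      rw [hS', Finset.mul_sum]
      refine Fintype.sum_equiv (Equiv.mulLeft χ) _ _ fun φ => ?_
      rw [Equiv.coe_mulLeft, MonoidHom.mul_apply, mul_inv, Units.val_mul]
    rw [mul_left_eq_self₀] at hS
    rcases hS with h | h
    · exact absurd (inv_eq_one.1 (Units.ext h)) hχ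
    · rw [h, zero_smul]

variable [FiniteDimensional k V]

theorem sum_finrank_wproj_le (hA : (Nat.card A : k) ≠ 0) (L : A →* Module.End k V) (s : Finset (A →* kˣ))
    (W : Submodule k V) (hW : ∀ φ ∈ s, LinearMap.range (wproj L φ) ≤ W) :
    ∑ φ ∈ s, finrank k (LinearMap.range (wproj L φ)) ≤ finrank k W := by
  classical
  let Φ : (Π φ : s, LinearMap.range (wproj L φ.1)) →ₗ[k] W :=
    LinearMap.codRestrict W (∑ φ : s, (LinearMap.range (wproj L φ.1)).subtype.comp (LinearMap.proj φ))
      fun f => by
        rw [LinearMap.sum_apply]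
        exact W.sum_mem fun φ _ => hW _ φ.2 (f φ).2
  have hΦ : Function.Injective Φ := by
    rw [injective_iff_map_eq_zero]
    intro f hf
    funext ψ
    refine Subtype.ext ?_
    have h1 := congrArg (fun v : W => wproj L ψ.1 (v : V)) hf
    simp only [Φ, LinearMap.codRestrict_apply, LinearMap.sum_apply, map_sum, ZeroMemClass.coe_zero, map_zero,
      LinearMap.comp_apply, LinearMap.proj_apply, Submodule.subtype_apply] at h1
    rw [Finset.sum_eq_single_of_mem ψ (Finset.mem_univ _)] at h1
    · obtain ⟨v, hv⟩ := (f ψ).2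
      rw [← hv, ← Module.End.mul_apply, wproj_mul_self hA] at h1
      rw [← hv, h1]
      rfl
    · intro φ _ hφ
      obtain ⟨v, hv⟩ := (f φ).2
      rw [← hv, ← Module.End.mul_apply, wproj_mul_of_ne L (fun h => hφ (Subtype.ext h).symm),
        LinearMap.zero_apply]
  have h2 := LinearMap.finrank_le_finrank_of_injective hΦ
  rw [Module.finrank_pi_fintype] at h2
  rwa [← Finset.sum_coe_sort s]

/-- The fixed space of an operator acting on the weight spaces by scalars. -/
theorem finrank_ker_sub_one_le (hA : (Nat.card A : k) ≠ 0) [Fintype (A →* kˣ)] (L : A →* Module.End k V)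
    (T : Module.End k V) (f : (A →* kˣ) → k) (hT : ∀ φ, wproj L φ * T = f φ • wproj L φ)
    (s : Finset (A →* kˣ)) (hs : ∀ φ, φ ∉ s → f φ ≠ 1) :
    finrank k (LinearMap.ker (T - 1)) ≤ ∑ φ ∈ s, finrank k (LinearMap.range (wproj L φ)) := by
  classical
  let res : LinearMap.ker (T - 1) →ₗ[k] Π φ : s, LinearMap.range (wproj L φ.1) :=
    LinearMap.pi fun φ => (wproj L φ.1).rangeRestrict.comp (LinearMap.ker (T - 1)).subtype
  have hres : Function.Injective res := by
    rw [injective_iff_map_eq_zero]
    intro v hv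
    refine Subtype.ext ?_
    suffices h : ∀ φ, wproj L φ (v : V) = 0 by
      have h1 : (∑ φ, wproj L φ) (v : V) = 0 := by
        rw [LinearMap.sum_apply]
        exact Finset.sum_eq_zero fun φ _ => h φ
      rwa [sum_wproj hA L, Module.End.one_apply] at h1
    intro φ
    by_cases hφ : φ ∈ s
    · exact congrArg Subtype.val (congrFun hv ⟨φ, hφ⟩)
    · have h1 : T (v : V) = v := by
        have := v.2
        rwa [LinearMap.mem_ker, LinearMap.sub_apply, Module.End.one_apply, sub_eq_zero] at this
      have h2 := LinearMap.congr_fun (hT φ) (v : V)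
      rw [Module.End.mul_apply, h1, LinearMap.smul_apply] at h2
      by_contra h0
      exact hs φ hφ (smul_left_injective k h0 (by simpa using h2.symm))
  have h2 := LinearMap.finrank_le_finrank_of_injective hres
  rw [Module.finrank_pi_fintype] at h2
  rwa [← Finset.sum_coe_sort s]

omit [IsAlgClosed k] in
/-- The eigenspaces of `Y` shifted around by `B`. -/
theorem mul_finrank_ker_le (Y B : Module.End k V) (hB : Function.Injective B) {ω : k} {n : ℕ}
    (hYB : Y * B = ω • (B * Y)) (hω : ∀ i < n, ∀ j < n, ω ^ i = ω ^ j → i = j) :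
    n * finrank k (LinearMap.ker (Y - 1)) ≤ finrank k V := by
  classical
  set K := LinearMap.ker (Y - 1)
  have hmem : ∀ i, K.map (B ^ i) ≤ Y.eigenspace (ω ^ i) := by
    intro i
    induction i with
    | zero =>
      intro v hv
      rw [pow_zero, Module.End.one_eq_id, Submodule.map_id, LinearMap.mem_ker, LinearMap.sub_apply,
        Module.End.one_apply, sub_eq_zero] at hv
      rw [Module.End.mem_eigenspace_iff, hv, pow_zero, one_smul]
    | succ i ih =>
      rintro _ ⟨v, hv, rfl⟩
      have h1 := ih ⟨v, hv, rfl⟩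
      rw [Module.End.mem_eigenspace_iff] at h1 ⊢
      rw [pow_succ', Module.End.mul_apply, ← Module.End.mul_apply Y, hYB, LinearMap.smul_apply,
        Module.End.mul_apply, h1, map_smul, smul_smul, pow_succ']
  suffices h : ∀ s : Finset ℕ, (∀ i ∈ s, i < n) →
      s.card * finrank k K ≤ finrank k ↥(s.sup fun i => Y.eigenspace (ω ^ i)) by
    simpa using (h (Finset.range n) fun i hi => Finset.mem_range.1 hi).trans (Submodule.finrank_le _)
  intro s hs
  induction s using Finset.induction_on with
  | empty => simp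
  | insert i s his ih =>
    rw [Finset.card_insert_of_notMem his, Finset.sup_insert, add_mul, one_mul]
    have hd : Disjoint (Y.eigenspace (ω ^ i)) (s.sup fun j => Y.eigenspace (ω ^ j)) := by
      refine ((Module.End.eigenspaces_iSupIndep Y) (ω ^ i)).mono_right (Finset.sup_le fun j hj => ?_)
      refine le_iSup₂ (f := fun μ (_ : μ ≠ ω ^ i) => Y.eigenspace μ) (ω ^ j) fun h => his ?_
      have := hω j (hs j (Finset.mem_insert_of_mem hj)) i (hs i (Finset.mem_insert_self _ _)) h
      exact this ▸ hj
    have h1 := Submodule.finrank_sup_add_finrank_inf_eq (Y.eigenspace (ω ^ i))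
      (s.sup fun j => Y.eigenspace (ω ^ j))
    rw [hd.eq_bot, finrank_bot, add_zero] at h1
    rw [h1]
    have h2 : finrank k K ≤ finrank k ↥(Y.eigenspace (ω ^ i)) := by
      have hinj : Function.Injective ⇑(B ^ i) := by rw [Module.End.coe_pow]; exact hB.iterate i
      rw [(Submodule.equivMapOfInjective (B ^ i) hinj K).finrank_eq]
      exact Submodule.finrank_mono (hmem i)
    have := ih fun j hj => hs j (Finset.mem_insert_of_mem hj)
    omega

end CfsgLib.FixedHalf
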