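import Mathlib
import Cfsg.Agent.FixedHalf.Imprimitive
import Cfsg.Agent.FixedHalf.Weights

/-!
Abelian normal subgroups of irreducible solvable linear groups generated by conjugates of an element of
prime order at least five: they are scalar, or the element fixes less than half of the space.
-/

set_option autoImplicit false

open Module

namespace CfsgLib.FixedHalf

universe u v w

variable {k : Type w} [Field k] {V : Type v} [AddCommGroup V] [Module k V] {G : Type u} [Group G]

/-- A group of `ℓ`-power order fixes a non-zero vector in characteristic `ℓ`. -/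
theorem exists_fixed_vector [Nontrivial V] {ℓ : ℕ} [hℓ : Fact ℓ.Prime] [CharP k ℓ] [Finite G]
    (hG : IsPGroup ℓ G) (L : G →* Module.End k V) : ∃ v : V, v ≠ 0 ∧ ∀ g, L g v = v := by
  classical
  have hℓ0 : ∀ v : V, ℓ • v = 0 := fun v => by
    rw [← Nat.cast_smul_eq_nsmul k, CharP.cast_eq_zero, zero_smul]
  haveI : Module (ZMod ℓ) V := AddCommGroup.zmodModule hℓ0
  obtain ⟨v₀, hv₀⟩ := exists_ne (0 : V)
  set W : Submodule (ZMod ℓ) V := Submodule.span (ZMod ℓ) (Set.range fun g => L g v₀) with hW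
  haveI : Module.Finite (ZMod ℓ) ↥W := Module.Finite.span_of_finite (ZMod ℓ) (Set.finite_range fun g => L g v₀)
  haveI : Finite W := Module.finite_of_finite (ZMod ℓ)
  have hinv : ∀ (g : G), ∀ w ∈ W, L g w ∈ W := by
    intro g w hw
    induction hw using Submodule.span_induction with
    | mem y hy =>
      obtain ⟨h, rfl⟩ := hy
      exact Submodule.subset_span ⟨g * h, by simp [map_mul]⟩
    | zero => rw [map_zero]; exact zero_mem _
    | add a b _ _ ha hb => rw [map_add]; exact add_mem ha hb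
    | smul c a _ ha => rw [ZMod.map_smul (L g)]; exact W.smul_mem c ha
  letI : MulAction G W :=
    { smul := fun g w => ⟨L g w, hinv g w w.2⟩
      one_smul := fun w => Subtype.ext (show L 1 (w : V) = w by rw [map_one, Module.End.one_apply])
      mul_smul := fun g h w => Subtype.ext (show L (g * h) (w : V) = L g (L h w) by
        rw [map_mul, Module.End.mul_apply]) }
  have hv : v₀ ∈ W := Submodule.subset_span ⟨1, by simp⟩
  haveI : Nontrivial W := ⟨⟨⟨v₀, hv⟩, 0, fun h => hv₀ (congrArg Subtype.val h)⟩⟩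
  have hdvd : ℓ ∣ Nat.card W := by
    rw [Module.natCard_eq_pow_finrank (K := ZMod ℓ), Nat.card_zmod]
    exact dvd_pow_self ℓ (finrank_pos (R := ZMod ℓ) (M := W)).ne'
  obtain ⟨w, hw, hw0⟩ := hG.exists_fixed_point_of_prime_dvd_card_of_fixed_point W hdvd (a := (0 : W))
    (fun g => Subtype.ext (show L g ((0 : W) : V) = _ by simp))
  exact ⟨w, fun h => hw0 (Subtype.ext h.symm), fun g => congrArg Subtype.val (hw g)⟩

variable [Nontrivial V] [Finite G]

/-- A normal `ℓ`-subgroup of an irreducible group in characteristic `ℓ` is trivial. -/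
theorem normal_pgroup_eq_bot {ℓ : ℕ} [Fact ℓ.Prime] [CharP k ℓ] (L : G →* Module.End k V)
    (hinj : Function.Injective L) (hsimp : ∀ U : Submodule k V, (∀ g, U.map (L g) ≤ U) → U = ⊥ ∨ U = ⊤)
    (N : Subgroup G) [N.Normal] (hN : IsPGroup ℓ N) : N = ⊥ := by
  let U : Submodule k V := ⨅ n : N, LinearMap.ker (L (n : G) - 1)
  have hU : ∀ v, v ∈ U ↔ ∀ n : N, L (n : G) v = v := fun v => by
    simp only [U, Submodule.mem_iInf, LinearMap.mem_ker, LinearMap.sub_apply, Module.End.one_apply, sub_eq_zero]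
  obtain ⟨v, hv0, hv⟩ := exists_fixed_vector (k := k) hN (L.comp N.subtype)
  have hinv : ∀ g, U.map (L g) ≤ U := by
    rintro g _ ⟨u, hu, rfl⟩
    rw [hU]
    intro n
    have h := (hU u).1 hu ⟨g⁻¹ * n * g, by simpa using (inferInstance : N.Normal).conj_mem _ n.2 g⁻¹⟩
    conv_rhs => rw [← h]
    simp only [← Module.End.mul_apply, ← map_mul]
    group
  rcases hsimp U hinv with h | h
  · exact absurd (show v ∈ (⊥ : Submodule k V) from h ▸ (hU v).2 hv) (by simpa using hv0)
  · refine (Subgroup.eq_bot_iff_forall N).2 fun n hn => hinj (LinearMap.ext fun u => ?_)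
    rw [map_one, Module.End.one_apply]
    exact (hU u).1 (h ▸ Submodule.mem_top) ⟨n, hn⟩

/-- An abelian normal subgroup is scalar, or the fixed space is less than half. -/
theorem blocks_or_scalar [IsAlgClosed k] [FiniteDimensional k V] [Group.IsSolvable G] {ℓ : ℕ}
    [Fact ℓ.Prime] [CharP k ℓ] {p : ℕ} (hp : p.Prime) (hp5 : 4 < p)
    (L : G →* Module.End k V) (hinj : Function.Injective L)
    (hsimp : ∀ U : Submodule k V, (∀ g, U.map (L g) ≤ U) → U = ⊥ ∨ U = ⊤)
    {x : G} (hxp : x ^ p = 1) (hgen : Subgroup.normalClosure ({x} : Set G) = ⊤)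
    (A : Subgroup G) [hAn : A.Normal] (hAc : ∀ a ∈ A, ∀ b ∈ A, a * b = b * a) :
    2 * finrank k (LinearMap.ker (L x - 1)) < finrank k V ∨ ∀ a ∈ A, ∃ c : k, L a = c • 1 := by
  classical
  letI : CommGroup A :=
    { (inferInstance : Group A) with mul_comm := fun a b => Subtype.ext (hAc a a.2 b b.2) }
  have hAk : (Nat.card A : k) ≠ 0 := by
    intro h
    rw [CharP.cast_eq_zero_iff k ℓ] at h
    obtain ⟨a, ha⟩ := exists_prime_orderOf_dvd_card' ℓ h
    let N : Subgroup G :=
      { carrier := {g | g ∈ A ∧ g ^ ℓ = 1}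
        one_mem' := ⟨one_mem A, one_pow ℓ⟩
        mul_mem' := fun {g g'} hg hg' => ⟨mul_mem hg.1 hg'.1, by
          rw [(show Commute g g' from hAc g hg.1 g' hg'.1).mul_pow, hg.2, hg'.2, one_mul]⟩
        inv_mem' := fun {g} hg => ⟨inv_mem hg.1, by rw [inv_pow, hg.2, inv_one]⟩ }
    haveI : N.Normal := ⟨fun n hn g => ⟨hAn.conj_mem n hn.1 g, by rw [conj_pow, hn.2, mul_one, mul_inv_cancel]⟩⟩
    have hN := normal_pgroup_eq_bot (ℓ := ℓ) L hinj hsimp N fun n => ⟨1, Subtype.ext (by simpa using n.2.2)⟩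
    have h1 : (a : G) ∈ N := ⟨a.2, by rw [← Subgroup.coe_pow, ← ha, pow_orderOf_eq_one, Subgroup.coe_one]⟩
    rw [hN, Subgroup.mem_bot, OneMemClass.coe_eq_one] at h1
    rw [h1, orderOf_one] at ha
    exact (Fact.out : ℓ.Prime).one_lt.ne ha
  let Λ : A →* Module.End k V := L.comp A.subtype
  haveI := finite_characters (k := k) hAk
  letI := Fintype.ofFinite (A →* kˣ)
  let cj : G → A →* A := fun g => MonoidHom.mk' (fun a => ⟨g⁻¹ * a * g, by
      simpa using hAn.conj_mem _ a.2 g⁻¹⟩) fun a b => Subtype.ext (by simp [mul_assoc])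
  letI : MulAction G (A →* kˣ) :=
    { smul := fun g φ => φ.comp (cj g)
      one_smul := fun φ => MonoidHom.ext fun a => congrArg φ (Subtype.ext (by simp [cj]))
      mul_smul := fun g h φ => MonoidHom.ext fun a => congrArg φ (Subtype.ext (by simp [cj, mul_assoc])) }
  have hLg : ∀ (g : G) φ, L g * wproj Λ φ = wproj Λ (g • φ) * L g := by
    intro g φ
    letI := Fintype.ofFinite A
    simp only [wproj, mul_smul_comm, smul_mul_assoc, Finset.mul_sum, Finset.sum_mul]
    congr 1
    let e : A ≃ A :=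
      { toFun := fun a => ⟨g * a * g⁻¹, hAn.conj_mem _ a.2 g⟩
        invFun := fun a => cj g a
        left_inv := fun a => Subtype.ext (by simp [cj, mul_assoc])
        right_inv := fun a => Subtype.ext (by simp [cj, mul_assoc]) }
    refine Fintype.sum_equiv e _ _ fun a => ?_
    have e1 : cj g (e a) = a := e.left_inv a
    show _ • (L g * L (a : G)) = (((φ (cj g (e a)))⁻¹ : kˣ) : k) • (L (g * a * g⁻¹) * L g)
    rw [e1, ← map_mul, ← map_mul, inv_mul_cancel_right]
  obtain ⟨χ, hχ⟩ : ∃ φ, wproj Λ φ ≠ 0 := by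
    by_contra h
    push Not at h
    have h1 := sum_wproj hAk Λ
    rw [Finset.sum_eq_zero fun φ _ => h φ] at h1
    exact zero_ne_one h1
  -- an idempotent commuting with the group is the identity
  have hone : ∀ E : Module.End k V, E * E = E → E ≠ 0 → (∀ g, L g * E = E * L g) → E = 1 := by
    intro E hE hE0 hcom
    have h := (hsimp (LinearMap.range E) fun g => by
      rintro _ ⟨_, ⟨v, rfl⟩, rfl⟩
      exact ⟨L g v, (LinearMap.congr_fun (hcom g) v).symm⟩).resolve_left
        fun h => hE0 (LinearMap.range_eq_bot.1 h)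
    refine LinearMap.ext fun v => ?_
    obtain ⟨u, rfl⟩ := LinearMap.range_eq_top.1 h v
    rw [← Module.End.mul_apply, hE, Module.End.one_apply]
  by_cases htop : MulAction.stabilizer G χ = ⊤
  · refine Or.inr fun a ha => ⟨χ ⟨a, ha⟩, ?_⟩
    have h1 : wproj Λ χ = 1 := hone _ (wproj_mul_self hAk Λ χ) hχ fun g => by
      rw [hLg, show g • χ = χ from MulAction.mem_stabilizer_iff.1 (htop ▸ Subgroup.mem_top g)]
    have h2 := apply_mul_wproj Λ χ ⟨a, ha⟩
    rwa [h1, mul_one] at h2
  left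
  obtain ⟨M, hM, hHM⟩ := (eq_top_or_exists_le_coatom (MulAction.stabilizer G χ)).resolve_left htop
  have hxM : x ∉ M.normalCore := fun h => hM.1 (top_le_iff.1 (hgen.ge.trans
    ((Subgroup.normalClosure_le_normal (Set.singleton_subset_iff.2 h)).trans M.normalCore_le)))
  letI : Fintype G := Fintype.ofFinite G
  let S : G ⧸ M → Finset (A →* kˣ) := fun y =>
    (Finset.univ.filter fun g : G => (g : G ⧸ M) = y).image fun g => g • χ
  have hS : ∀ {φ y}, φ ∈ S y → ∃ g : G, (g : G ⧸ M) = y ∧ g • χ = φ := fun h => by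
    simpa [S] using h
  have hSuniq : ∀ {φ y z}, φ ∈ S y → φ ∈ S z → y = z := by
    intro φ y z hy hz
    obtain ⟨g, rfl, hg⟩ := hS hy
    obtain ⟨h, rfl, hh⟩ := hS hz
    refine QuotientGroup.eq.2 (hHM ?_)
    rw [MulAction.mem_stabilizer_iff, mul_smul, hh, ← hg, inv_smul_smul]
  let Q : G ⧸ M → Module.End k V := fun y => ∑ φ ∈ S y, wproj Λ φ
  have hρ : ∀ (g : G) y, L g * Q y = Q (g • y) * L g := by
    intro g y
    simp only [Q, Finset.mul_sum, Finset.sum_mul, hLg]
    refine Finset.sum_bij (fun φ _ => g • φ) (fun φ hφ => ?_) (fun φ _ ψ _ h => MulAction.injective g h)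
      (fun ψ hψ => ?_) (fun φ _ => rfl)
    · obtain ⟨h, rfl, rfl⟩ := hS hφ
      exact Finset.mem_image.2 ⟨g * h, Finset.mem_filter.2 ⟨Finset.mem_univ _, rfl⟩, mul_smul g h χ⟩
    · obtain ⟨h, hh, rfl⟩ := hS hψ
      refine ⟨g⁻¹ • h • χ, Finset.mem_image.2 ⟨g⁻¹ * h, ?_, mul_smul _ _ χ⟩, smul_inv_smul g _⟩
      simp only [Finset.mem_filter, Finset.mem_univ, true_and]
      show g⁻¹ • (h : G ⧸ M) = y
      rw [hh, inv_smul_smul]
  have hQ0 : ∀ y z, y ≠ z → Q y * Q z = 0 := by
    intro y z hyz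
    simp only [Q, Finset.mul_sum, Finset.sum_mul]
    exact Finset.sum_eq_zero fun φ hφ => Finset.sum_eq_zero fun ψ hψ =>
      wproj_mul_of_ne Λ fun h => hyz (by first | exact hSuniq hφ (h ▸ hψ) | exact (hSuniq hφ (h ▸ hψ)).symm)
  have hQ2 : ∀ y, Q y * Q y = Q y := by
    intro y
    simp only [Q, Finset.mul_sum, Finset.sum_mul]
    refine Finset.sum_congr rfl fun φ hφ => ?_
    rw [Finset.sum_eq_single_of_mem φ hφ fun ψ _ h => wproj_mul_of_ne Λ h, wproj_mul_self hAk]
  refine fixed_lt_of_blocks L hp hp5 hxp Q hQ2 hQ0 ?_ hρ (fixed_cosets_le hp hp5 M hM hxp hxM)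
  intro inst
  refine hone _ ?_ ?_ fun g => ?_
  · rw [Finset.sum_mul_sum]
    refine Finset.sum_congr rfl fun y _ => ?_
    rw [Finset.sum_eq_single_of_mem y (Finset.mem_univ _) fun z _ h => hQ0 y z (Ne.symm h), hQ2]
  · intro h
    have h1 := congrArg (fun E => E * wproj Λ χ) h
    simp only [Q, zero_mul, Finset.sum_mul] at h1
    have hmem : χ ∈ S ((1 : G) : G ⧸ M) := Finset.mem_image.2 ⟨1, by simp, one_smul G χ⟩
    rw [Finset.sum_eq_single_of_mem ((1 : G) : G ⧸ M) (Finset.mem_univ _) fun y _ hy =>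
        Finset.sum_eq_zero fun φ hφ => wproj_mul_of_ne Λ fun he => hy (hSuniq hφ (by rw [he]; exact hmem)),
      Finset.sum_eq_single_of_mem χ hmem fun φ _ hφ => wproj_mul_of_ne Λ hφ, wproj_mul_self hAk] at h1
    exact hχ h1
  · rw [Finset.mul_sum, Finset.sum_mul]
    simp only [hρ]
    exact Fintype.sum_equiv (MulAction.toPerm g) _ _ fun y => rfl

end CfsgLib.FixedHalf
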