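import Mathlib
import Cfsg.Agent.HallHigmanB.Main

/-!
An operator of prime order permuting the basis of a Heisenberg representation regularly has eigenspaces
of less than half the dimension.
-/

set_option autoImplicit false

open Module

open scoped commutatorElement

namespace CfsgLib.FixedHalf

open CfsgLib.HallHigmanB

universe u v w

variable {k : Type w} [Field k] {V : Type v} [AddCommGroup V] [Module k V]

/-- The square of the dimension of an eigenspace is less than the dimension of the commutant. -/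
theorem sq_kernel_lt_commutant [FiniteDimensional k V] (T : Module.End k V) (hT : T ≠ 1) :
    finrank k (LinearMap.ker (T - 1)) ^ 2 < finrank k (commutant T) := by
  set K := LinearMap.ker (T - 1) with hK
  set R := LinearMap.range (T - 1) with hR
  let φ : ((V ⧸ R) →ₗ[k] K) →ₗ[k] Module.End k V :=
    (LinearMap.llcomp k V K V K.subtype) ∘ₗ (LinearMap.lcomp k K R.mkQ)
  have hφ : ∀ A x, φ A x = (A (R.mkQ x) : V) := fun A x => rfl
  have hinj : Function.Injective φ := by
    intro A B h
    refine LinearMap.ext fun y => ?_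
    obtain ⟨x, rfl⟩ := R.mkQ_surjective y
    exact Subtype.ext (LinearMap.congr_fun h x)
  have hle : LinearMap.range φ < commutant T := by
    refine lt_of_le_of_ne ?_ fun h => ?_
    · rintro _ ⟨A, rfl⟩
      rw [mem_commutant]
      have h1 : ∀ x, T ((φ A) x) = (φ A) x := fun x => by
        have h := (A (R.mkQ x)).2
        have h2 : (T - 1) ((A (R.mkQ x)) : V) = 0 := LinearMap.mem_ker.1 h
        rw [LinearMap.sub_apply, Module.End.one_apply, sub_eq_zero] at h2
        exact h2
      refine LinearMap.ext fun x => ?_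
      rw [Module.End.mul_apply, Module.End.mul_apply, h1, hφ, hφ]
      have h2 : R.mkQ (T x) = R.mkQ x := (Submodule.Quotient.eq R).2 ⟨x, rfl⟩
      rw [h2]
    · have h1 : (1 : Module.End k V) ∈ commutant T := by rw [mem_commutant, one_mul, mul_one]
      rw [← h] at h1
      obtain ⟨A, hA⟩ := h1
      refine hT (sub_eq_zero.1 (LinearMap.ext fun x => ?_))
      have h2 := LinearMap.congr_fun hA ((T - 1) x)
      rw [hφ, Module.End.one_apply, R.mkQ_apply, (Submodule.Quotient.mk_eq_zero R).2 ⟨x, rfl⟩, map_zero] at h2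
      exact h2.symm
  have hdim : finrank k (V ⧸ R) = finrank k K := by
    have h1 := Submodule.finrank_quotient_add_finrank R
    have h2 := LinearMap.finrank_range_add_finrank_ker (T - 1)
    rw [← hR, ← hK] at h2
    omega
  calc finrank k K ^ 2 = finrank k ((V ⧸ R) →ₗ[k] K) := by rw [Module.finrank_linearMap, hdim, sq]
    _ = finrank k (LinearMap.range φ) := (LinearMap.finrank_range_of_inj hinj).symm
    _ < finrank k (commutant T) := Submodule.finrank_lt_finrank_of_lt hle

variable [IsAlgClosed k] [FiniteDimensional k V] [Nontrivial V] {S : Type u} [Group S] [Finite S]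

/-- In the regular situation the fixed space is less than half of the space. -/
theorem two_mul_fixed_lt {p : ℕ} [hp : Fact p.Prime] (hp5 : 4 < p) (hSk : (Nat.card S : k) ≠ 0)
    (L : S →* Module.End k V) (hinj : Function.Injective L)
    (hsimple : ∀ U : Submodule k V, (∀ s, U.map (L s) ≤ U) → U = ⊥ ∨ U = ⊤)
    (hcomm : ∀ s t : S, ⁅s, t⁆ ∈ Subgroup.center S) (hnc : Subgroup.center S ≠ ⊤)
    (σ : MulAut S) (hσ : σ ^ p = 1) (T : Module.End k V) (hT : T ^ p = 1)
    (hTL : ∀ s, T * L s = L (σ s) * T)
    (hreg : ∀ s : S, s⁻¹ * σ s ∈ Subgroup.center S → s ∈ Subgroup.center S) :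
    2 * finrank k (LinearMap.ker (T - 1)) < finrank k V := by
  classical
  letI : Fintype S := Fintype.ofFinite S
  set Z := Subgroup.center S with hZ
  letI : Fintype (S ⧸ Z) := Fintype.ofFinite _
  have hcen : ∀ z ∈ Z, ∀ t : S, t * z = z * t := fun z hz t => Subgroup.mem_center_iff.1 hz t
  -- the centre acts by scalars
  have hsc : ∀ z : Z, ∃ a : kˣ, L (z : S) = (a : k) • 1 := by
    intro z
    obtain ⟨a, ha⟩ := exists_scalar L hsimple (L z) fun s => by
      rw [← map_mul, ← map_mul, hcen z z.2 s]
    have ha0 : a ≠ 0 := by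
      intro h0
      rw [h0, zero_smul] at ha
      have h1 := apply_mul_apply_inv L (z : S)
      rw [ha, zero_mul] at h1
      exact zero_ne_one h1
    exact ⟨Units.mk0 a ha0, ha⟩
  choose χ₀ hχ₀ using hsc
  have hsmul_inj : ∀ a b : k, a • (1 : Module.End k V) = b • 1 → a = b := fun a b h => by
    obtain ⟨x, hx⟩ := exists_ne (0 : V)
    exact smul_left_injective k hx (by simpa using LinearMap.congr_fun h x)
  let χ : Z →* kˣ := MonoidHom.mk' χ₀ fun a b => Units.ext (hsmul_inj _ _ (by
    rw [← hχ₀, Subgroup.coe_mul, map_mul, hχ₀, hχ₀, smul_mul_assoc, one_mul, smul_smul, Units.val_mul]))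
  have hχ : ∀ z : Z, L (z : S) = (χ z : k) • 1 := hχ₀
  -- the pairing
  let β : S → S →* kˣ := fun v => MonoidHom.mk' (fun t => χ ⟨⁅t, v⁆, hcomm t v⟩) fun t t' => by
    rw [← map_mul]
    refine congrArg χ (Subtype.ext ?_)
    show ⁅t * t', v⁆ = ⁅t, v⁆ * ⁅t', v⁆
    calc ⁅t * t', v⁆ = t * ⁅t', v⁆ * t⁻¹ * ⁅t, v⁆ := by simp only [commutatorElement_def]; group
      _ = _ := by rw [hcen _ (hcomm t' v) t, mul_inv_cancel_right, hcen _ (hcomm t v) ⁅t', v⁆]
  have hLL : ∀ t v, L t * L v * L t⁻¹ = (β v t : k) • L v := fun t v => by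
    rw [← map_mul, ← map_mul, show t * v * t⁻¹ = ⁅t, v⁆ * v by simp [commutatorElement_def, mul_assoc],
      map_mul, hχ ⟨⁅t, v⁆, hcomm t v⟩, smul_mul_assoc, one_mul]
    rfl
  have hβsymm : ∀ t v, β v t = (β t v)⁻¹ := fun t v => by
    show χ _ = (χ _)⁻¹
    rw [← map_inv]
    exact congrArg χ (Subtype.ext (commutatorElement_inv v t).symm)
  have hnd : ∀ v, β v = 1 → v ∈ Z := by
    intro v hv
    refine Subgroup.mem_center_iff.2 fun t => hinj ?_
    have h := hLL t v
    rw [hv, MonoidHom.one_apply, Units.val_one, one_smul] at h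
    rw [map_mul, map_mul]
    calc L t * L v = L t * L v * L t⁻¹ * L t := by rw [mul_assoc (L t * L v), apply_inv_mul_apply, mul_one]
      _ = L v * L t := by rw [h]
  have hβmul : ∀ v v' t, β (v * v') t = β v t * β v' t := fun v v' t => by
    rw [hβsymm t (v * v'), map_mul, mul_inv, ← hβsymm, ← hβsymm]
  -- basis
  let e : S ⧸ Z → Module.End k V := fun x => L x.out
  have hrep : ∀ s : S, ∃ a : k, L s = a • e (QuotientGroup.mk s) := by
    intro s
    obtain ⟨z, hz⟩ := QuotientGroup.mk_out_eq_mul Z s
    refine ⟨((χ z)⁻¹ : kˣ).val, ?_⟩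
    show L s = _ • L _
    rw [hz, map_mul, hχ, mul_smul_comm, mul_one, smul_smul, Units.inv_mul, one_smul]
  have hspan : Submodule.span k (Set.range e) = ⊤ := by
    rw [eq_top_iff]
    intro X _
    let comp : S → Module.End k V := fun v => ∑ t : S, ((β v t)⁻¹ : kˣ).val • (L t * X * L t⁻¹)
    have hmem : ∀ v, comp v ∈ Submodule.span k (Set.range e) := by
      intro v
      have hcj : ∀ s, L s * comp v * L s⁻¹ = (β v s : k) • comp v := by
        intro s
        show L s * (∑ t : S, _) * L s⁻¹ = _ • ∑ t : S, _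
        rw [Finset.mul_sum, Finset.sum_mul, Finset.smul_sum,
          ← Equiv.sum_comp (Equiv.mulLeft s) (fun t => (β v s : k) • ((β v t)⁻¹ : kˣ).val • (L t * X * L t⁻¹))]
        refine Finset.sum_congr rfl fun t _ => ?_
        rw [Equiv.coe_mulLeft, smul_smul, ← Units.val_mul, map_mul (β v), mul_inv, mul_inv_cancel_left,
          mul_inv_rev, map_mul L, map_mul L, mul_smul_comm, smul_mul_assoc]
        simp only [mul_assoc]
      obtain ⟨a, ha⟩ := exists_scalar L hsimple (L v⁻¹ * comp v) fun s => by
        have hcr : L s * L v⁻¹ * L s⁻¹ = ((β v s)⁻¹ : kˣ).val • L v⁻¹ := by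
          rw [hLL]
          congr 2
          rw [hβsymm, map_inv, inv_inv]
          exact (hβsymm s v).trans rfl |>.symm ▸ (inv_inv _).symm
        calc L s * (L v⁻¹ * comp v)
            = (L s * L v⁻¹ * L s⁻¹) * (L s * comp v * L s⁻¹) * L s := by
              simp only [mul_assoc, apply_inv_mul_apply, mul_one]
              rw [← mul_assoc (L s⁻¹) (L s), apply_inv_mul_apply, one_mul]
          _ = L v⁻¹ * comp v * L s := by
              rw [hcr, hcj, smul_mul_assoc, mul_smul_comm, smul_smul, Units.inv_mul, one_smul]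
      have h1 : comp v = a • L v := by
        calc comp v = L v * (L v⁻¹ * comp v) := by rw [← mul_assoc, apply_mul_apply_inv, one_mul]
          _ = a • L v := by rw [ha, mul_smul_comm, mul_one]
      obtain ⟨b, hb⟩ := hrep v
      rw [h1, hb, smul_smul]
      exact Submodule.smul_mem _ _ (Submodule.subset_span ⟨_, rfl⟩)
    have htot : ∑ v : S, comp v = ((Nat.card S : k) * (Nat.card Z : k)) • X := by
      show ∑ v : S, ∑ t : S, _ = _
      rw [Finset.sum_comm]
      simp only [← Finset.sum_smul]
      have h2 : ∀ t : S, (∑ v : S, ((β v t)⁻¹ : kˣ).val) • (L t * X * L t⁻¹) =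
          if t ∈ Z then (Nat.card S : k) • X else 0 := by
        intro t
        split_ifs with ht
        · have h3 : ∀ v, β v t = 1 := fun v => by
            refine (congrArg χ (Subtype.ext ?_)).trans (map_one χ)
            exact commutatorElement_eq_one_iff_mul_comm.2 (hcen t ht v).symm
          simp only [h3, inv_one, Units.val_one, Finset.sum_const, Finset.card_univ, nsmul_eq_mul, mul_one]
          rw [hχ ⟨t, ht⟩, smul_mul_assoc, one_mul, smul_mul_assoc, ← Nat.card_eq_fintype_card,
            show L t⁻¹ = ((χ ⟨t, ht⟩)⁻¹ : kˣ).val • (1 : Module.End k V) from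
              (hχ ⟨t⁻¹, inv_mem ht⟩).trans (by
                rw [show (⟨t⁻¹, inv_mem ht⟩ : Z) = (⟨t, ht⟩ : Z)⁻¹ from rfl, map_inv]),
            mul_smul_comm, mul_one, smul_smul, smul_smul, mul_assoc, Units.mul_inv, mul_one]
        · let g : S →* kˣ := MonoidHom.mk' (fun v => (β v t)⁻¹) fun v v' => by
            rw [hβmul, mul_inv]
          have hg : g ≠ 1 := fun h => ht (hnd t (MonoidHom.ext fun v => by
            rw [hβsymm]
            exact DFunLike.congr_fun h v))
          rw [show (∑ v : S, ((β v t)⁻¹ : kˣ).val) = 0 from sum_char_eq_zero hg, zero_smul]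
      simp only [h2]
      rw [Finset.sum_ite, Finset.sum_const_zero, add_zero, Finset.sum_const, ← Nat.cast_smul_eq_nsmul k,
        smul_smul, mul_comm]
      congr 2
      rw [Nat.card_eq_fintype_card, Fintype.card_subtype]
    have hne : ((Nat.card S : k) * (Nat.card Z : k)) ≠ 0 := by
      refine mul_ne_zero hSk fun h0 => hSk ?_
      obtain ⟨c, hc⟩ := Subgroup.card_subgroup_dvd_card Z
      rw [hc, Nat.cast_mul, h0, zero_mul]
    have hX : X = ((Nat.card S : k) * (Nat.card Z : k))⁻¹ • ∑ v : S, comp v := by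
      rw [htot, inv_smul_smul₀ hne]
    rw [hX]
    exact Submodule.smul_mem _ _ (Submodule.sum_mem _ fun v _ => hmem v)
  have hind : LinearIndependent k e := by
    rw [Fintype.linearIndependent_iff]
    intro a ha x
    have h1 : ∑ t : S, ((β x.out t)⁻¹ : kˣ).val • (L t * (∑ y, a y • e y) * L t⁻¹) = 0 := by
      simp [ha]
    simp only [Finset.mul_sum, Finset.sum_mul, mul_smul_comm, smul_mul_assoc, Finset.smul_sum, e, hLL,
      smul_smul] at h1
    rw [Finset.sum_comm] at h1
    simp only [← Finset.sum_smul] at h1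
    rw [Finset.sum_eq_single_of_mem x (Finset.mem_univ x)] at h1
    · have h2 : (∑ t : S, ((β x.out t)⁻¹ : kˣ).val * (a x * (β x.out t : k))) = (Nat.card S : k) * a x := by
        have h3 : ∀ t : S, ((β x.out t)⁻¹ : kˣ).val * (a x * (β x.out t : k)) = a x := fun t => by
          rw [mul_left_comm, Units.inv_mul, mul_one]
        simp only [h3, Finset.sum_const, Finset.card_univ, nsmul_eq_mul, Nat.card_eq_fintype_card]
      rw [h2, smul_eq_zero] at h1
      rcases h1 with h1 | h1
      · exact (mul_eq_zero.1 h1).resolve_left hSk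
      · exact absurd (show (0 : Module.End k V) = 1 by simpa [h1] using apply_inv_mul_apply L x.out) zero_ne_one
    · intro y _ hy
      let g : S →* kˣ := MonoidHom.mk' (fun t => (β x.out t)⁻¹ * β y.out t) fun t t' => by
        rw [map_mul, map_mul, mul_inv, mul_mul_mul_comm]
      have hg : g ≠ 1 := by
        intro h
        refine hy ?_
        have h4 : β (x.out⁻¹ * y.out) = 1 := MonoidHom.ext fun t => by
          rw [hβmul, hβsymm t x.out⁻¹, map_inv, inv_inv]
          have h5 : (β x.out t)⁻¹ * β y.out t = 1 := DFunLike.congr_fun h t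
          rw [hβsymm t x.out, inv_inv] at h5
          exact h5
        rw [← QuotientGroup.out_eq' x, ← QuotientGroup.out_eq' y]
        exact (QuotientGroup.eq.2 (hnd _ h4)).symm
      have h5 : (∑ t : S, ((β x.out t)⁻¹ : kˣ).val * (a y * (β y.out t : k))) = 0 := by
        have h6 : ∀ t : S, ((β x.out t)⁻¹ : kˣ).val * (a y * (β y.out t : k)) = a y * (g t : k) := fun t => by
          show _ = a y * (((β x.out t)⁻¹ * β y.out t : kˣ) : k)
          rw [Units.val_mul]
          ring
        simp only [h6, ← Finset.mul_sum, sum_char_eq_zero hg, mul_zero]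
      rw [h5, zero_smul]
  let b : Basis (S ⧸ Z) k (Module.End k V) := Basis.mk hind hspan.ge
  set d := finrank k V with hd
  have hd2 : Nat.card (S ⧸ Z) = d ^ 2 := by
    rw [Nat.card_eq_fintype_card, ← Module.finrank_eq_card_basis b, Module.finrank_linearMap, sq]
  have hd1 : 1 < d := by
    have h1 : 1 < Nat.card (S ⧸ Z) := by
      rw [← Subgroup.index_eq_card]
      exact Subgroup.one_lt_index_of_ne_top hnc
    rw [hd2] at h1
    by_contra hle
    interval_cases d <;> simp at h1
  -- the permutation of the basis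
  let σZ : MulAut (S ⧸ Z) := QuotientGroup.congr Z Z σ (Subgroup.characteristic_iff_map_eq.1 inferInstance σ)
  have hσZmk : ∀ (i : ℕ) (s : S), (σZ ^ i) (s : S ⧸ Z) = ((σ ^ i) s : S) := by
    intro i
    induction i with
    | zero => intro s; rfl
    | succ i ih =>
      intro s
      rw [pow_succ', pow_succ', MulAut.mul_apply, MulAut.mul_apply, ih]
      rfl
  have hσZp : σZ ^ p = 1 := MulEquiv.ext fun y => by
    induction y using QuotientGroup.induction_on with
    | _ s => rw [hσZmk, hσ]; rfl
  have hperm : ∀ y : S ⧸ Z, ∃ a : k, T * e y = a • (e (σZ y) * T) := fun y => by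
    obtain ⟨a, ha⟩ := hrep (σ y.out)
    refine ⟨a, ?_⟩
    have h1 : ((σ y.out : S) : S ⧸ Z) = σZ y := by
      conv_rhs => rw [← QuotientGroup.out_eq' y]
      exact (by simpa using (hσZmk 1 y.out).symm)
    show T * L y.out = _
    rw [hTL, ha, h1, smul_mul_assoc]
  choose a ha using hperm
  let G := Subgroup.zpowers σZ
  let Ω := MulAction.orbitRel.Quotient G (S ⧸ Z)
  have hcoord : ∀ X ∈ commutant T, ∀ y, b.repr X (σZ y) = a y * b.repr X y := by
    intro X hX y
    rw [mem_commutant] at hX
    have hTu : T * T ^ (p - 1) = 1 := by rw [← pow_succ', Nat.sub_add_cancel hp.out.one_le, hT]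
    have h1 : X = ∑ y, (a y * b.repr X y) • e (σZ y) := by
      calc X = X * T * T ^ (p - 1) := by rw [mul_assoc, hTu, mul_one]
        _ = T * (∑ y, b.repr X y • e y) * T ^ (p - 1) := by
          rw [← hX]
          congr 2
          conv_lhs => rw [← b.sum_repr X]
          simp only [b, Basis.coe_mk]
        _ = _ := by
          rw [Finset.mul_sum, Finset.sum_mul]
          refine Finset.sum_congr rfl fun y _ => ?_
          rw [mul_smul_comm, ha, smul_smul, smul_mul_assoc, mul_assoc, hTu, mul_one, mul_comm]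
    rw [← Equiv.sum_comp σZ.toEquiv.symm] at h1
    simp only [MulEquiv.toEquiv_eq_coe, MulEquiv.coe_toEquiv_symm, MulEquiv.apply_symm_apply] at h1
    conv_lhs => rw [h1]
    have h2 : (∑ y, (a (σZ.symm y) * b.repr X (σZ.symm y)) • e y) =
        ∑ y, (a (σZ.symm y) * b.repr X (σZ.symm y)) • b y := by simp only [b, Basis.coe_mk]
    rw [h2, b.repr_sum_self, MulEquiv.symm_apply_apply]
  let res : commutant T →ₗ[k] (Ω → k) :=
    { toFun := fun X ω => b.repr (X : Module.End k V) ω.out
      map_add' := fun X Y => funext fun ω => by simp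
      map_smul' := fun c X => funext fun ω => by simp }
  have hres : Function.Injective res := by
    rw [injective_iff_map_eq_zero]
    intro X hX
    refine Subtype.ext (b.repr.injective (Finsupp.ext fun y => ?_))
    rw [ZeroMemClass.coe_zero, map_zero, Finsupp.zero_apply]
    obtain ⟨g, hg⟩ : ∃ g : G, g • (Quotient.mk'' y : Ω).out = y :=
      MulAction.mem_orbit_iff.1 (MulAction.mem_orbit_symm.1 (MulAction.orbitRel_apply.1
        (Quotient.exact (Quotient.out_eq (Quotient.mk'' y : Ω)))))
    obtain ⟨i, hi⟩ : ∃ i : ℕ, σZ ^ i = (g : MulAut (S ⧸ Z)) := mem_powers_iff_mem_zpowers.2 g.2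
    rw [← hg, show g • (Quotient.mk'' y : Ω).out = (σZ ^ i) (Quotient.mk'' y : Ω).out by rw [hi]; rfl]
    clear hg hi
    induction i with
    | zero => exact congrFun hX _
    | succ i ih => rw [pow_succ', MulAut.mul_apply, hcoord _ X.2, ih, mul_zero]
  letI : Fintype Ω := Fintype.ofFinite _
  have hcount : p * Nat.card Ω + 1 ≤ p + Nat.card (S ⧸ Z) := by
    let ω₁ : Ω := Quotient.mk'' (1 : S ⧸ Z)
    have horb : ∀ ω : Ω, ω ≠ ω₁ → Nat.card (MulAction.orbit G ω.out) = p := by
      intro ω hω
      have hGp : IsPGroup p G := fun g => ⟨1, by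
        obtain ⟨i, hi⟩ := Subgroup.mem_zpowers_iff.1 g.2
        refine Subtype.ext ?_
        rw [pow_one, Subgroup.coe_pow, ← hi, ← zpow_natCast, ← zpow_mul, mul_comm, zpow_mul, zpow_natCast,
          hσZp, one_zpow]
        rfl⟩
      obtain ⟨l, hl⟩ := hGp.card_orbit ω.out
      rw [hl]
      have hl1 : l ≤ 1 := by
        by_contra hl1
        have h2 : p ^ l ≤ p := by
          rw [← hl]
          refine (Nat.card_le_card_of_surjective (fun g : G => (⟨g • ω.out, MulAction.mem_orbit _ g⟩ :
            MulAction.orbit G ω.out)) fun y => ?_).trans (Nat.le_of_dvd hp.out.pos ?_)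
          · obtain ⟨g, hg⟩ := MulAction.mem_orbit_iff.1 y.2
            exact ⟨g, Subtype.ext hg⟩
          · rw [Nat.card_zpowers]
            exact orderOf_dvd_of_pow_eq_one hσZp
        have h3 : p ^ 2 ≤ p ^ l := Nat.pow_le_pow_right hp.out.pos (by omega)
        nlinarith [hp.out.two_le]
      rcases Nat.le_one_iff_eq_zero_or_eq_one.1 hl1 with rfl | rfl
      · rw [pow_zero, Nat.card_eq_one_iff_unique] at hl
        haveI := hl.1
        have h2 : σZ ω.out = ω.out := congrArg Subtype.val (Subsingleton.elim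
          (⟨(⟨σZ, Subgroup.mem_zpowers σZ⟩ : G) • ω.out, MulAction.mem_orbit _ _⟩ : MulAction.orbit G ω.out)
          ⟨ω.out, MulAction.mem_orbit_self _⟩)
        refine absurd ?_ hω
        have h3 : ω.out = 1 := by
          obtain ⟨s, hs⟩ := QuotientGroup.mk_surjective ω.out
          rw [← hs] at h2 ⊢
          exact (QuotientGroup.eq_one_iff s).2 (hreg s (QuotientGroup.eq.1
            (((by simpa using hσZmk 1 s) : σZ (s : S ⧸ Z) = (σ s : S)).symm.trans h2).symm))
        rw [← ω.out_eq, h3]
      · exact pow_one p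
    have h1 : Nat.card (S ⧸ Z) = ∑ ω : Ω, Nat.card (MulAction.orbit G ω.out) := by
      rw [Nat.card_congr (MulAction.selfEquivSigmaOrbits G (S ⧸ Z)), Nat.card_sigma]
    rw [h1, ← Finset.add_sum_erase _ _ (Finset.mem_univ ω₁),
      Finset.sum_congr rfl fun ω hω => horb ω (Finset.ne_of_mem_erase hω), Finset.sum_const,
      Finset.card_erase_of_mem (Finset.mem_univ _), Finset.card_univ, smul_eq_mul, ← Nat.card_eq_fintype_card]
    haveI : Nonempty (MulAction.orbit G ω₁.out) := ⟨⟨_, MulAction.mem_orbit_self _⟩⟩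
    have h2 : 1 ≤ Nat.card (MulAction.orbit G ω₁.out) := Nat.card_pos
    obtain ⟨r, hr⟩ : ∃ r, Nat.card Ω = r + 1 := ⟨Nat.card Ω - 1, by
      have := Nat.card_pos (α := Ω); omega⟩
    rw [hr, Nat.add_sub_cancel]
    nlinarith
  have hT1 : T ≠ 1 := by
    intro h1
    refine hnc (eq_top_iff.2 fun s _ => hreg s ?_)
    have h2 : σ s = s := hinj (by
      have := hTL s
      rwa [h1, one_mul, mul_one, eq_comm] at this)
    rw [h2, inv_mul_cancel]
    exact one_mem _
  have h1 := sq_kernel_lt_commutant T hT1
  have h2 : finrank k (commutant T) ≤ Nat.card Ω := by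
    have := LinearMap.finrank_le_finrank_of_injective hres
    rwa [Module.finrank_fintype_fun_eq_card, ← Nat.card_eq_fintype_card] at this
  rw [hd2] at hcount
  set m := finrank k (LinearMap.ker (T - 1))
  by_contra hcon
  push Not at hcon
  have h3 : d ^ 2 ≤ (2 * m) ^ 2 := Nat.pow_le_pow_left hcon 2
  nlinarith

end CfsgLib.FixedHalf
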