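import Mathlib
import Cfsg.Agent.FixedHalf.Commutant
import Cfsg.Agent.FixedHalf.Twist
import Cfsg.Agent.FixedHalf.Weights
import Cfsg.Agent.PGroup.Normal

/-!
An operator of prime order at least five inducing a non-trivial automorphism of a group of class two and
prime power order with faithful scalar centre fixes less than half of the space.
-/

set_option autoImplicit false

open Module

open scoped commutatorElement

namespace CfsgLib.FixedHalf

universe u v w

variable {k : Type w} [Field k]

/-- The fixed space on a subspace and on its quotient bound the fixed space. -/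
theorem finrank_ker_sub_one_le_add {V : Type v} [AddCommGroup V] [Module k V] [FiniteDimensional k V]
    (T : Module.End k V) (U : Submodule k V) (hT : U ≤ U.comap T) :
    finrank k (LinearMap.ker (T - 1)) ≤
      finrank k (LinearMap.ker (T.restrict hT - 1)) + finrank k (LinearMap.ker (U.mapQ U T hT - 1)) := by
  set K := LinearMap.ker (T - 1) with hK
  have hfix : ∀ v ∈ K, T v = v := fun v hv => by
    rwa [hK, LinearMap.mem_ker, LinearMap.sub_apply, Module.End.one_apply, sub_eq_zero] at hv
  let f : K →ₗ[k] LinearMap.ker (U.mapQ U T hT - 1) :=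
    LinearMap.codRestrict _ (U.mkQ.comp K.subtype) fun v => by
      rw [LinearMap.mem_ker, LinearMap.sub_apply, Module.End.one_apply, sub_eq_zero]
      simp only [LinearMap.comp_apply, Submodule.subtype_apply, Submodule.mkQ_apply, Submodule.mapQ_apply,
        hfix _ v.2]
  have hmem : ∀ v : LinearMap.ker f, ((v : K) : V) ∈ U := fun v => by
    have h := congrArg Subtype.val (LinearMap.mem_ker.1 v.2)
    exact (Submodule.Quotient.mk_eq_zero U).1 h
  let g : LinearMap.ker f →ₗ[k] LinearMap.ker (T.restrict hT - 1) :=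
    LinearMap.codRestrict _ (LinearMap.codRestrict U (K.subtype.comp (LinearMap.ker f).subtype) hmem)
      fun v => by
        rw [LinearMap.mem_ker, LinearMap.sub_apply, Module.End.one_apply, sub_eq_zero]
        exact Subtype.ext (hfix _ (v : K).2)
  have hg : Function.Injective g := fun a b h =>
    Subtype.ext (Subtype.ext (congrArg (fun z : LinearMap.ker (T.restrict hT - 1) => ((z : U) : V)) h))
  have h1 := LinearMap.finrank_range_add_finrank_ker f
  have h2 := LinearMap.finrank_le_finrank_of_injective hg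
  have h3 := Submodule.finrank_le (LinearMap.range f)
  omega

variable [IsAlgClosed k]

/-- The regular case. -/
theorem regular_bound {p : ℕ} [hp : Fact p.Prime] (hp5 : 4 < p) {S : Type u} [Group S] [Finite S]
    (hSk : (Nat.card S : k) ≠ 0) (hcomm : ∀ s t : S, ⁅s, t⁆ ∈ Subgroup.center S)
    (hnc : Subgroup.center S ≠ ⊤)
    (hmeet : ∀ K : Subgroup S, K.Normal → K ≠ ⊥ → ∃ z ∈ K, z ∈ Subgroup.center S ∧ z ≠ 1)
    (σ : MulAut S) (hσ : σ ^ p = 1)
    (hreg : ∀ s : S, s⁻¹ * σ s ∈ Subgroup.center S → s ∈ Subgroup.center S) :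
    ∀ (d : ℕ) (V : Type v) [AddCommGroup V] [Module k V] [FiniteDimensional k V],
      finrank k V = d → 0 < d → ∀ (L : S →* Module.End k V) (T : Module.End k V), T ^ p = 1 →
      (∀ s, T * L s = L (σ s) * T) →
      (∀ z ∈ Subgroup.center S, ∃ a : k, (z ≠ 1 → a ≠ 1) ∧ L z = a • 1) →
      2 * finrank k (LinearMap.ker (T - 1)) < d := by
  intro d
  induction d using Nat.strong_induction_on with
  | _ d IH =>
  intro V _ _ _ hd hd0 L T hT hTL hscal
  haveI : Nontrivial V := Module.nontrivial_of_finrank_pos (R := k) (hd ▸ hd0)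
  have hinj : Function.Injective L := by
    rw [← MonoidHom.ker_eq_bot_iff]
    by_contra hK
    obtain ⟨z, hzK, hzZ, hz1⟩ := hmeet L.ker inferInstance hK
    obtain ⟨a, ha, hLz⟩ := hscal z hzZ
    obtain ⟨v, hv⟩ := exists_ne (0 : V)
    have h1 := LinearMap.congr_fun ((MonoidHom.mem_ker.1 hzK).symm.trans hLz) v
    rw [Module.End.one_apply, LinearMap.smul_apply, Module.End.one_apply] at h1
    exact ha hz1 (smul_left_injective k hv (by simpa using h1.symm))
  by_cases hred : ∃ U : Submodule k V, U ≠ ⊥ ∧ U ≠ ⊤ ∧ U.map T ≤ U ∧ ∀ s, U.map (L s) ≤ U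
  · obtain ⟨U, hU0, hU1, hUT, hUL⟩ := hred
    have hT' : U ≤ U.comap T := fun x hx => hUT ⟨x, hx, rfl⟩
    have hL' : ∀ s, U ≤ U.comap (L s) := fun s x hx => hUL s ⟨x, hx, rfl⟩
    let L₁ : S →* Module.End k U := CfsgLib.HallHigmanB.restrictRep L U fun s x hx => hL' s hx
    let L₂ : S →* Module.End k (V ⧸ U) :=
      { toFun := fun s => U.mapQ U (L s) (hL' s)
        map_one' := Submodule.linearMap_qext _ (LinearMap.ext fun x => by simp)
        map_mul' := fun a b => Submodule.linearMap_qext _ (LinearMap.ext fun x => by simp) }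
    have h1 : 0 < finrank k U := Nat.pos_of_ne_zero fun h => hU0 (Submodule.finrank_eq_zero.1 h)
    have h2 := Submodule.finrank_lt hU1
    have h3 := Submodule.finrank_quotient_add_finrank U
    have hpow : ∀ (i : ℕ) (x : V), (U.mapQ U T hT' ^ i) (U.mkQ x) = U.mkQ ((T ^ i) x) := by
      intro i
      induction i with
      | zero => intro x; rfl
      | succ i ih =>
        intro x
        rw [pow_succ', pow_succ', Module.End.mul_apply, Module.End.mul_apply, ih]
        rfl
    have e1 := IH (finrank k U) (by omega) U rfl h1 L₁ (T.restrict hT')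
      (LinearMap.ext fun x => Subtype.ext (by rw [CfsgLib.HallHigmanB.restrict_pow_coe, hT]; rfl))
      (fun s => LinearMap.ext fun x => Subtype.ext (LinearMap.congr_fun (hTL s) x))
      (fun z hz => by
        obtain ⟨a, ha, h⟩ := hscal z hz
        exact ⟨a, ha, LinearMap.ext fun x => Subtype.ext (LinearMap.congr_fun h x)⟩)
    have e2 := IH (finrank k (V ⧸ U)) (by omega) (V ⧸ U) rfl (by omega) L₂ (U.mapQ U T hT')
      (Submodule.linearMap_qext _ (LinearMap.ext fun x => by
        simp only [LinearMap.comp_apply, hpow, hT]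
        rfl))
      (fun s => Submodule.linearMap_qext _ (LinearMap.ext fun x =>
        congrArg (Submodule.Quotient.mk (p := U)) (LinearMap.congr_fun (hTL s) x)))
      (fun z hz => by
        obtain ⟨a, ha, h⟩ := hscal z hz
        exact ⟨a, ha, Submodule.linearMap_qext _ (LinearMap.ext fun x =>
          congrArg (Submodule.Quotient.mk (p := U)) (LinearMap.congr_fun h x))⟩)
    have e3 := finrank_ker_sub_one_le_add T U hT'
    omega
  push Not at hred
  have hsimp : ∀ U : Submodule k V, U.map T ≤ U → (∀ s, U.map (L s) ≤ U) → U = ⊥ ∨ U = ⊤ := by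
    intro U hU1 hU2
    by_contra h
    push Not at h
    obtain ⟨s, hs⟩ := hred U h.1 h.2 hU1
    exact hs (hU2 s)
  have hsimple := simple_of_twist (p := p) hSk L hinj hcomm (fun z hz => ⟨_, (hscal z hz).choose_spec.2⟩)
    σ 1 (by rwa [pow_one]) T (by rwa [pow_one]) hTL hsimp
  exact hd ▸ two_mul_fixed_lt hp5 hSk L hinj hsimple hcomm hnc σ hσ T hT hTL hreg

variable {V : Type v} [AddCommGroup V] [Module k V] [FiniteDimensional k V] [Nontrivial V]
  {R : Type u} [Group R] [Finite R]

/-- A non-trivial twist of a class-two group with scalar centre fixes less than half of the space. -/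
theorem class_two_bound {p q : ℕ} [hp : Fact p.Prime] [hq : Fact q.Prime] (hp5 : 4 < p) (hR : IsPGroup q R)
    (hRk : (Nat.card R : k) ≠ 0) (L : R →* Module.End k V) (hinj : Function.Injective L)
    (hcomm : ∀ r s : R, ⁅r, s⁆ ∈ Subgroup.center R)
    (hscal : ∀ z ∈ Subgroup.center R, ∃ a : k, L z = a • 1)
    (σ : MulAut R) (hσ : σ ^ p = 1) (hσ1 : σ ≠ 1) (X : Module.End k V) (hX : X ^ p = 1)
    (hXL : ∀ r, X * L r = L (σ r) * X) :
    2 * finrank k (LinearMap.ker (X - 1)) < finrank k V := by
  classical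
  set Z := Subgroup.center R with hZ
  have hN : 0 < finrank k V := finrank_pos
  have hXinv : X * X ^ (p - 1) = 1 := by rw [← pow_succ', Nat.sub_add_cancel hp.out.one_le, hX]
  have hsmul_inj : ∀ a b : k, a • (1 : Module.End k V) = b • 1 → a = b := fun a b h => by
    obtain ⟨x, hx⟩ := exists_ne (0 : V)
    exact smul_left_injective k hx (by simpa using LinearMap.congr_fun h x)
  have hLinj : ∀ r, Function.Injective (L r) := fun r a b h => by
    have h1 := congrArg (L r⁻¹) h
    simpa only [← Module.End.mul_apply, ← map_mul, inv_mul_cancel, map_one, Module.End.one_apply] using h1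
  have hscal1 : ∀ z ∈ Z, ∃ a : k, (z ≠ 1 → a ≠ 1) ∧ L z = a • 1 := fun z hz => by
    obtain ⟨a, ha⟩ := hscal z hz
    refine ⟨a, fun hz1 ha1 => hz1 (hinj ?_), ha⟩
    rw [ha, ha1, one_smul, map_one]
  have hcen : ∀ z ∈ Z, ∀ t : R, t * z = z * t := fun z hz t => Subgroup.mem_center_iff.1 hz t
  have hσZ : ∀ z ∈ Z, σ z = z := fun z hz => by
    obtain ⟨a, ha⟩ := hscal z hz
    refine hinj ?_
    calc L (σ z) = L (σ z) * (X * X ^ (p - 1)) := by rw [hXinv, mul_one]
      _ = X * L z * X ^ (p - 1) := by rw [← mul_assoc, hXL]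
      _ = L z := by rw [ha, mul_smul_comm, mul_one, smul_mul_assoc, hXinv]
  have hdel : ∀ r, σ r * r⁻¹ ∈ Z → ∀ i : ℕ, (σ ^ i) r = (σ r * r⁻¹) ^ i * r := by
    intro r hr i
    induction i with
    | zero => simp
    | succ i ih =>
      rw [pow_succ', MulAut.mul_apply, ih, map_mul, map_pow, hσZ _ hr, pow_succ, mul_assoc _ _ r,
        inv_mul_cancel_right]
  -- `σ` moves some element by a central element
  by_cases hA : ∃ r, σ r * r⁻¹ ∈ Z ∧ σ r ≠ r
  · obtain ⟨r, hrZ, hr⟩ := hA
    obtain ⟨ω, hω1, hω⟩ := hscal1 _ hrZ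
    have hωp : ω ^ p = 1 := by
      refine hsmul_inj _ _ ?_
      have h := hdel r hrZ p
      rw [hσ, MulAut.one_apply, right_eq_mul] at h
      have h' := congrArg L h
      rw [map_pow, map_one, hω, smul_pow, one_pow] at h'
      rw [one_smul]
      exact h'
    have hXr : X * L r = ω • (L r * X) := by
      rw [hXL, ← inv_mul_cancel_right (σ r) r, map_mul, hω, smul_mul_assoc, one_mul, smul_mul_assoc]
    have hne : ω ≠ 1 := hω1 fun h => hr (mul_inv_eq_one.1 h)
    have hord : orderOf ω = p := orderOf_eq_prime hωp hne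
    have h3 := mul_finrank_ker_le X (L r) (hLinj r) (n := 3) hXr fun i hi j hj h =>
      pow_injOn_Iio_orderOf (by simp [hord]; omega) (by simp [hord]; omega) h
    omega
  push Not at hA
  obtain ⟨r₁, hr₁⟩ : ∃ r, σ r ≠ r := by
    by_contra h
    push Not at h
    exact hσ1 (MulEquiv.ext fun r => by simpa using h r)
  let C : Subgroup R :=
    { carrier := {r | σ r = r}
      one_mem' := map_one σ
      mul_mem' := fun {a b} (ha : σ a = a) (hb : σ b = b) => show σ (a * b) = a * b by rw [map_mul, ha, hb]
      inv_mem' := fun {a} (ha : σ a = a) => show σ a⁻¹ = a⁻¹ by rw [map_inv, ha] }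
  have hCmem : ∀ {r}, r ∈ C ↔ σ r = r := Iff.rfl
  have hPG : IsPGroup p (Subgroup.zpowers σ) := fun g => ⟨1, by
    obtain ⟨i, hi⟩ := Subgroup.mem_zpowers_iff.1 g.2
    refine Subtype.ext ?_
    rw [pow_one, Subgroup.coe_pow, ← hi, ← zpow_natCast, ← zpow_mul, mul_comm, zpow_mul, zpow_natCast, hσ,
      one_zpow]
    rfl⟩
  by_cases hpq : q = p
  · -- the modular case
    rw [hpq] at hR
    obtain ⟨r, hrC, a, haC, hra⟩ : ∃ r, r ∉ C ∧ ∃ a ∈ C, σ r = a * r := by
      have hmap : C.map σ.toMonoidHom = C := by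
        ext y
        constructor
        · rintro ⟨c, hc, rfl⟩
          show σ (σ c) = σ c
          rw [hCmem.1 hc]
          exact hCmem.1 hc
        · exact fun hy => ⟨y, hy, hy⟩
      let π : R ⧸ C → R ⧸ C := Quotient.map' σ fun a b h => by
        rw [QuotientGroup.leftRel_apply] at h ⊢
        rw [← map_inv, ← map_mul, ← hmap]
        exact ⟨_, h, rfl⟩
      have hπmk : ∀ r : R, π (r : R ⧸ C) = ((σ r : R) : R ⧸ C) := fun r => rfl
      have hπp : ∀ (i : ℕ) (r : R), π^[i] (r : R ⧸ C) = (((σ ^ i) r : R) : R ⧸ C) := by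
        intro i
        induction i with
        | zero => intro r; rfl
        | succ i ih =>
          intro r
          rw [Function.iterate_succ_apply', ih, hπmk, pow_succ', MulAut.mul_apply]
      letI : MulAction (Subgroup.zpowers σ) (R ⧸ C) :=
        { smul := fun g => Quotient.map' (g : MulAut R) fun a b h => by
            obtain ⟨i, hi⟩ := mem_powers_iff_mem_zpowers.2 g.2
            rw [QuotientGroup.leftRel_apply] at h ⊢
            rw [← hi, ← map_inv, ← map_mul]
            show (σ ^ i) _ ∈ C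
            rw [hCmem, ← MulAut.mul_apply, ← pow_succ', pow_succ, MulAut.mul_apply, hCmem.1 h]
          one_smul := fun y => Quotient.inductionOn' y fun r => rfl
          mul_smul := fun g g' y => Quotient.inductionOn' y fun r => rfl }
      have hcard : p ∣ Nat.card (R ⧸ C) := by
        obtain ⟨n, hn⟩ := hR.index C
        rcases Nat.eq_zero_or_pos n with rfl | hpos
        · rw [pow_zero, Subgroup.index_eq_one] at hn
          exact absurd (hCmem.1 (hn ▸ Subgroup.mem_top r₁)) hr₁
        · rw [← Subgroup.index_eq_card, hn]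
          exact dvd_pow_self p hpos.ne'
      obtain ⟨y, hy, hy1⟩ := hPG.exists_fixed_point_of_prime_dvd_card_of_fixed_point (R ⧸ C) hcard
        (a := ((1 : R) : R ⧸ C)) (fun g => by
          show (((g : MulAut R) 1 : R) : R ⧸ C) = _
          rw [map_one])
      obtain ⟨r, rfl⟩ := QuotientGroup.mk_surjective y
      have hrC : r ∉ C := fun h => hy1 (QuotientGroup.eq.2 (by simpa using h))
      have h1 : r⁻¹ * σ r ∈ C := by
        have h := hy ⟨σ, Subgroup.mem_zpowers σ⟩
        exact QuotientGroup.eq.1 h.symm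
      refine ⟨r, hrC, σ r * r⁻¹, ?_, (inv_mul_cancel_right _ _).symm⟩
      have h2 : σ r * r⁻¹ = ⁅r, r⁻¹ * σ r⁆ * (r⁻¹ * σ r) := by
        simp only [commutatorElement_def]; group
      rw [h2]
      exact mul_mem (hCmem.2 (hσZ _ (hcomm _ _))) h1
    have haZ : a ∉ Z := fun h => hrC (hA r (by rw [hra, mul_inv_cancel_right]; exact h))
    have hXa : Commute X (L a) := by
      have h := hXL a
      rwa [hCmem.1 haC] at h
    -- the abelian group
    letI : CommGroup (Subgroup.zpowers a) :=
      { (inferInstance : Group (Subgroup.zpowers a)) with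
        mul_comm := fun b c => Subtype.ext (by
          obtain ⟨i, hi⟩ := Subgroup.mem_zpowers_iff.1 b.2
          obtain ⟨j, hj⟩ := Subgroup.mem_zpowers_iff.1 c.2
          simp only [Subgroup.coe_mul, ← hi, ← hj, ← zpow_add, add_comm]) }
    haveI : NeZero p := ⟨hp.out.ne_zero⟩
    let f : Multiplicative (ZMod p) →* Module.End k V :=
      { toFun := fun i => X ^ (Multiplicative.toAdd i).val
        map_one' := by simp
        map_mul' := fun i j => by rw [toAdd_mul, ← pow_add, ZMod.val_add, ← pow_eq_pow_mod _ hX] }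
    let g : Subgroup.zpowers a →* Module.End k V := L.comp (Subgroup.zpowers a).subtype
    have hfg : ∀ i b, Commute (f i) (g b) := fun i b => by
      obtain ⟨j, hj⟩ := mem_powers_iff_mem_zpowers.2 b.2
      show Commute (X ^ (Multiplicative.toAdd i).val) (L (b : R))
      rw [← hj, map_pow]
      exact hXa.pow_pow _ _
    let Λ : Multiplicative (ZMod p) × Subgroup.zpowers a →* Module.End k V := f.noncommCoprod g hfg
    let x₀ : Multiplicative (ZMod p) × Subgroup.zpowers a := (Multiplicative.ofAdd 1, 1)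
    let a₀ : Multiplicative (ZMod p) × Subgroup.zpowers a := (1, ⟨a, Subgroup.mem_zpowers a⟩)
    have hΛx : Λ x₀ = X := by
      simp [Λ, x₀, f, g, ZMod.val_one]
    have hΛa : Λ a₀ = L a := by
      simp [Λ, a₀, f, g]
    have hΛa' : ∀ j : ℕ, Λ (a₀⁻¹ ^ j) = L (a⁻¹ ^ j) := fun j => by
      simp [Λ, a₀, f, g]
    have hΛk : (Nat.card (Multiplicative (ZMod p) × Subgroup.zpowers a) : k) ≠ 0 := by
      rw [Nat.card_prod, Nat.cast_mul]
      refine mul_ne_zero ?_ ?_
      · rw [Nat.card_eq_fintype_card, Fintype.card_multiplicative, ZMod.card]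
        intro h
        obtain ⟨c, hc⟩ : p ∣ Nat.card R := by
          haveI : Nontrivial R := ⟨⟨σ r₁, r₁, hr₁⟩⟩
          obtain ⟨n, hn, hn'⟩ := (IsPGroup.nontrivial_iff_card hR).1 inferInstance
          exact hn' ▸ dvd_pow_self p hn.ne'
        exact hRk (by rw [hc, Nat.cast_mul, h, zero_mul])
      · intro h
        obtain ⟨c, hc⟩ := Subgroup.card_subgroup_dvd_card (Subgroup.zpowers a)
        exact hRk (by rw [hc, Nat.cast_mul, h, zero_mul])
    haveI := finite_characters (k := k) hΛk
    letI := Fintype.ofFinite (Multiplicative (ZMod p) × Subgroup.zpowers a →* kˣ)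
    set c := finrank k (LinearMap.ker (X - 1)) with hc
    obtain ⟨ζ, hζ1, hζ⟩ := hscal1 _ (hcomm r a⁻¹)
    have hζp : ∃ e : ℕ, ζ ^ (p ^ e) = 1 := by
      obtain ⟨e, he⟩ := hR ⁅r, a⁻¹⁆
      refine ⟨e, hsmul_inj _ _ ?_⟩
      have h' := congrArg L he
      rw [map_pow, map_one, hζ, smul_pow, one_pow] at h'
      rw [one_smul]
      exact h'
    let ω : ℕ → k := fun j => ∏ i ∈ Finset.range j, ζ ^ i
    have hconj : ∀ j : ℕ, L (r ^ j) * X = ω j • (L (a⁻¹ ^ j) * X) * L (r ^ j) := by
      have hX1 : L r * X = L a⁻¹ * X * L r := by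
        rw [mul_assoc, hXL, hra, map_mul, ← mul_assoc, ← mul_assoc, ← map_mul, inv_mul_cancel, map_one,
          one_mul]
      have hra' : ∀ j : ℕ, L r * L (a⁻¹ ^ j) = ζ ^ j • (L (a⁻¹ ^ j) * L r) := by
        intro j
        induction j with
        | zero => simp
        | succ j ih =>
          have h1 : L r * L a⁻¹ = ζ • (L a⁻¹ * L r) := by
            rw [← map_mul, show r * a⁻¹ = ⁅r, a⁻¹⁆ * (a⁻¹ * r) by simp [commutatorElement_def, mul_assoc],
              map_mul, hζ, smul_mul_assoc, one_mul, map_mul]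
          rw [pow_succ, map_mul, ← mul_assoc, ih, smul_mul_assoc, mul_assoc, h1, mul_smul_comm, smul_smul,
            ← pow_succ, ← mul_assoc]
      intro j
      induction j with
      | zero => simp [ω]
      | succ j ih =>
        have hω : ω (j + 1) = ω j * ζ ^ j := Finset.prod_range_succ _ _
        rw [pow_succ', map_mul, mul_assoc, ih, smul_mul_assoc, mul_smul_comm, ← mul_assoc (L r),
          ← mul_assoc (L r) (L (a⁻¹ ^ j)), hra', hω, smul_mul_assoc, smul_mul_assoc, smul_smul,
          mul_assoc (L (a⁻¹ ^ j)), hX1, pow_succ, map_mul, smul_mul_assoc]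
        simp only [mul_assoc]
    have hker : ∀ j : ℕ, finrank k (LinearMap.ker (ω j • (L (a⁻¹ ^ j) * X) - 1)) = c := by
      intro j
      have hinv : Function.Surjective (L (r ^ j)) :=
        LinearMap.surjective_of_injective (hLinj _)
      rw [hc, (Submodule.equivMapOfInjective _ (hLinj (r ^ j)) (LinearMap.ker (X - 1))).finrank_eq]
      refine congrArg (fun U : Submodule k V => finrank k U) ?_
      have key : ∀ v, (ω j • (L (a⁻¹ ^ j) * X) - 1) (L (r ^ j) v) = L (r ^ j) ((X - 1) v) := by
        intro v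
        rw [LinearMap.sub_apply, LinearMap.sub_apply, map_sub, Module.End.one_apply, Module.End.one_apply,
          ← Module.End.mul_apply, ← Module.End.mul_apply, hconj]
      ext w
      obtain ⟨v, rfl⟩ := hinv w
      constructor
      · intro hw
        refine ⟨v, hLinj (r ^ j) ?_, rfl⟩
        rw [map_zero, ← key]
        exact hw
      · rintro ⟨v', hv', hvv⟩
        rw [LinearMap.mem_ker, ← hvv, key, LinearMap.mem_ker.1 hv', map_zero]
    let W := fun φ : Multiplicative (ZMod p) × Subgroup.zpowers a →* kˣ =>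
      finrank k (LinearMap.range (wproj Λ φ))
    let val : ℕ → (Multiplicative (ZMod p) × Subgroup.zpowers a →* kˣ) → k := fun j φ =>
      ω j * (φ (a₀⁻¹ ^ j * x₀) : k)
    let n := fun φ => ((Finset.range 5).filter fun j => val j φ = 1).card
    have h5 : 5 * c ≤ ∑ φ, W φ * n φ := by
      calc 5 * c = ∑ j ∈ Finset.range 5, c := by simp
        _ ≤ ∑ j ∈ Finset.range 5, ∑ φ ∈ Finset.univ.filter (fun φ => val j φ = 1), W φ := by
          refine Finset.sum_le_sum fun j _ => ?_
          rw [← hker j]
          refine finrank_ker_sub_one_le hΛk Λ _ (fun φ => val j φ) (fun φ => ?_) _ fun φ hφ h => hφ (by simp [h])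
          rw [← hΛa', ← hΛx, ← map_mul, mul_smul_comm, wproj_mul_apply, smul_smul]
        _ = _ := by
          simp only [Finset.sum_filter]
          rw [Finset.sum_comm]
          refine Finset.sum_congr rfl fun φ _ => ?_
          rw [← Finset.sum_filter, Finset.sum_const, smul_eq_mul, mul_comm]
    have hWsum : ∑ φ, W φ ≤ finrank k V :=
      (sum_finrank_wproj_le hΛk Λ Finset.univ ⊤ fun φ _ => le_top).trans (Submodule.finrank_le _)
    -- the scalars
    have hω0 : ∀ j, ω j = ζ ^ (j * (j - 1) / 2) := fun j => by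
      rw [← Finset.sum_range_id]
      induction j with
      | zero => simp [ω]
      | succ j ih =>
        show (∏ i ∈ Finset.range (j + 1), ζ ^ i) = _
        rw [Finset.prod_range_succ, Finset.sum_range_succ, pow_add]
        exact congrArg (· * ζ ^ j) ih
    have hval : ∀ φ, ∃ g : kˣ, (∃ e : ℕ, g ^ (p ^ e) = 1) ∧ ((φ a₀ = 1) ↔ g = 1) ∧
        ∃ μ : kˣ, ∀ j, val j φ = ζ ^ (j * (j - 1) / 2) * (g : k) ^ j * (μ : k) := by
      intro φ
      obtain ⟨e, he⟩ := hR a
      refine ⟨(φ a₀)⁻¹, ⟨e, ?_⟩, by simp, φ x₀, fun j => ?_⟩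
      · have h : a₀ ^ (p ^ e) = 1 := by
          refine Prod.ext (by simp [a₀]) (Subtype.ext ?_)
          simpa [a₀] using he
        rw [inv_pow, ← map_pow, h, map_one, inv_one]
      · simp only [val, hω0, map_mul, map_pow, map_inv, Units.val_mul, Units.val_pow_eq_pow_val]
        ring
    have hp_not : ∀ m : ℕ, 0 < m → m < 5 → ∀ x : k, x ^ m = 1 → (∃ e, x ^ (p ^ e) = 1) → x = 1 := by
      rintro m hm hm5 x hxm ⟨e, he⟩
      have h1 : (Nat.gcd m (p ^ e)) = 1 := by
        refine Nat.Coprime.pow_right e ?_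
        exact ((Nat.Prime.coprime_iff_not_dvd hp.out).2 fun h => by
          have := Nat.le_of_dvd hm h; omega).symm
      have := pow_gcd_eq_one.2 ⟨hxm, he⟩
      rwa [h1, pow_one] at this
    by_cases hz : ⁅r, a⁻¹⁆ = 1
    · have hζe : ζ = 1 := by
        refine hsmul_inj _ _ ?_
        rw [← hζ, hz, map_one, one_smul]
      set E := LinearMap.ker (L a - 1) with hE
      have hn : ∀ φ, W φ * n φ ≤ W φ + (if φ a₀ = 1 then 4 * W φ else 0) := by
        intro φ
        split_ifs with h
        · have : n φ ≤ 5 := (Finset.card_filter_le _ _).trans (by simp)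
          nlinarith
        · suffices n φ ≤ 1 by nlinarith
          rw [Finset.card_le_one]
          obtain ⟨g, ⟨e, he⟩, hg, μ, hμ⟩ := hval φ
          intro i hi j hj
          simp only [Finset.mem_filter, Finset.mem_range, hμ, hζe, one_pow, one_mul] at hi hj
          by_contra hij
          rcases lt_or_gt_of_ne hij with hlt | hlt
          all_goals
            refine h (hg.2 (Units.ext (hp_not _ (Nat.sub_pos_of_lt hlt) (by omega) (g : k) ?_
              ⟨e, by rw [← Units.val_pow_eq_pow_val, he, Units.val_one]⟩)))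
          · have h1 : (g : k) ^ j = (g : k) ^ i := mul_right_cancel₀ μ.ne_zero (hj.2.trans hi.2.symm)
            rw [← Nat.add_sub_cancel' hlt.le, pow_add] at h1
            exact mul_left_cancel₀ (pow_ne_zero i g.ne_zero) (h1.trans (mul_one _).symm)
          · have h1 : (g : k) ^ i = (g : k) ^ j := mul_right_cancel₀ μ.ne_zero (hi.2.trans hj.2.symm)
            rw [← Nat.add_sub_cancel' hlt.le, pow_add] at h1
            exact mul_left_cancel₀ (pow_ne_zero j g.ne_zero) (h1.trans (mul_one _).symm)
      have he : ∑ φ ∈ Finset.univ.filter (fun φ => φ a₀ = 1), W φ ≤ finrank k E := by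
        refine sum_finrank_wproj_le hΛk Λ _ E fun φ hφ => ?_
        rintro _ ⟨v, rfl⟩
        rw [Finset.mem_filter] at hφ
        rw [hE, LinearMap.mem_ker, LinearMap.sub_apply, Module.End.one_apply, sub_eq_zero,
          ← Module.End.mul_apply, ← hΛa, apply_mul_wproj, hφ.2, Units.val_one, one_smul]
      have hE5 : 5 * finrank k E ≤ finrank k V := by
        obtain ⟨b, hb⟩ : ∃ b, ¬ b * a = a * b := by
          by_contra h
          push Not at h
          exact haZ (Subgroup.mem_center_iff.2 h)
        obtain ⟨w, hw1, hw⟩ := hscal1 _ (hcomm a b)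
        have hne : ⁅a, b⁆ ≠ 1 := fun h => hb (commutatorElement_eq_one_iff_mul_comm.1 h).symm
        have hwp : ∃ e, w ^ (p ^ e) = 1 := by
          obtain ⟨e, he⟩ := hR ⁅a, b⁆
          refine ⟨e, hsmul_inj _ _ ?_⟩
          have h' := congrArg L he
          rw [map_pow, map_one, hw, smul_pow, one_pow] at h'
          rw [one_smul]
          exact h'
        refine mul_finrank_ker_le (L a) (L b) (hLinj b) (ω := w) ?_ fun i hi j hj h => ?_
        · rw [← map_mul, ← map_mul, show a * b = ⁅a, b⁆ * (b * a) by simp [commutatorElement_def, mul_assoc],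
            map_mul, hw, smul_mul_assoc, one_mul]
        · obtain ⟨e, he⟩ := hwp
          have hw0 : w ≠ 0 := fun h0 => by
            rw [h0, zero_pow (pow_ne_zero _ hp.out.ne_zero)] at he
            exact zero_ne_one he
          by_contra hij
          rcases lt_or_gt_of_ne hij with hlt | hlt
          all_goals
            refine hw1 hne (hp_not _ (Nat.sub_pos_of_lt hlt) (by omega) w ?_ ⟨e, he⟩)
            rw [← Nat.add_sub_cancel' hlt.le, pow_add] at h
          · exact mul_left_cancel₀ (pow_ne_zero i hw0) (h.symm.trans (mul_one _).symm)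
          · exact mul_left_cancel₀ (pow_ne_zero j hw0) (h.trans (mul_one _).symm)
      have h6 : 5 * c ≤ ∑ φ, W φ + 4 * ∑ φ ∈ Finset.univ.filter (fun φ => φ a₀ = 1), W φ := by
        refine h5.trans ((Finset.sum_le_sum fun φ _ => hn φ).trans (le_of_eq ?_))
        rw [Finset.sum_add_distrib, Finset.mul_sum, Finset.sum_filter]
      omega
    · have hn : ∀ φ, n φ ≤ 2 := by
        intro φ
        obtain ⟨g, ⟨e, he⟩, hg, μ, hμ⟩ := hval φ
        by_contra h3
        push Not at h3
        obtain ⟨e', he'⟩ := hζp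
        have hζ0 : ζ ≠ 0 := fun h0 => by
          rw [h0, zero_pow (pow_ne_zero _ hp.out.ne_zero)] at he'
          exact zero_ne_one he'
        obtain ⟨i, j, l, hij, hjl, hl5, h1, h2, h4⟩ : ∃ i j l : ℕ, i < j ∧ j < l ∧ l < 5 ∧
            val i φ = 1 ∧ val j φ = 1 ∧ val l φ = 1 := by
          have key : ∀ s ∈ (Finset.range 5).powerset, 2 < s.card →
              ∃ i ∈ s, ∃ j ∈ s, ∃ l ∈ s, i < j ∧ j < l := by decide
          obtain ⟨i, hi, j, hj, l, hl, hij, hjl⟩ := key ((Finset.range 5).filter fun j => val j φ = 1)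
            (Finset.mem_powerset.2 (Finset.filter_subset _ _)) h3
          simp only [Finset.mem_filter, Finset.mem_range] at hi hj hl
          exact ⟨i, j, l, hij, hjl, hl.1, hi.2, hj.2, hl.2⟩
        rw [hμ] at h1 h2 h4
        -- two exponent relations
        set T := fun t : ℕ => t * (t - 1) / 2 with hT'
        have rel : ∀ i j : ℕ, i < j → ζ ^ T i * (g : k) ^ i * μ = 1 → ζ ^ T j * (g : k) ^ j * μ = 1 →
            ζ ^ (T j - T i) * (g : k) ^ (j - i) = 1 := by
          intro i j hij hi hj
          have hT : T i ≤ T j := Nat.div_le_div_right (Nat.mul_le_mul hij.le (by omega))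
          have : ζ ^ (T j - T i) * (g : k) ^ (j - i) * (ζ ^ T i * (g : k) ^ i * μ) = 1 := by
            rw [show ζ ^ (T j - T i) * (g : k) ^ (j - i) * (ζ ^ T i * (g : k) ^ i * μ) =
              ζ ^ (T j - T i + T i) * (g : k) ^ (j - i + i) * μ by simp only [pow_add]; ring,
              Nat.sub_add_cancel hT, Nat.sub_add_cancel hij.le, hj]
          rwa [hi, mul_one] at this
        have r1 := congrArg (fun x => x ^ (l - j)) (rel i j hij h1 h2)
        have r2 := congrArg (fun x => x ^ (j - i)) (rel j l hjl h2 h4)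
        simp only [mul_pow, ← pow_mul, one_pow] at r1 r2
        rw [mul_comm (l - j) (j - i)] at r2
        have key : ∀ u v : ℕ, u < v → ζ ^ u * (g : k) ^ ((j - i) * (l - j)) = 1 →
            ζ ^ v * (g : k) ^ ((j - i) * (l - j)) = 1 → ζ ^ (v - u) = 1 := by
          intro u v huv hu hv
          have h := mul_right_cancel₀ (pow_ne_zero _ g.ne_zero) (hv.trans hu.symm)
          rw [← Nat.add_sub_cancel' huv.le, pow_add] at h
          exact mul_left_cancel₀ (pow_ne_zero u hζ0) (h.trans (mul_one _).symm)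
        have hd : (T j - T i) * (l - j) < (T l - T j) * (j - i) := by
          have : ∀ l < 5, ∀ j < l, ∀ i < j, (T j - T i) * (l - j) < (T l - T j) * (j - i) := by
            simp only [hT']; decide
          exact this l hl5 j hjl i hij
        have h8 := key _ _ hd r1 r2
        have hd' : ¬ p ∣ (T l - T j) * (j - i) - (T j - T i) * (l - j) := by
          have : ∀ l < 5, ∀ j < l, ∀ i < j,
              (T l - T j) * (j - i) - (T j - T i) * (l - j) ∈ ({1, 3, 6, 8} : Finset ℕ) := by
            simp only [hT']; decide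
          have h9 := this l hl5 j hjl i hij
          simp only [Finset.mem_insert, Finset.mem_singleton] at h9
          intro hdvd
          rcases h9 with h9 | h9 | h9 | h9 <;> rw [h9] at hdvd
          · exact hp.out.one_lt.ne' (Nat.dvd_one.1 hdvd)
          · have := Nat.le_of_dvd (by norm_num) hdvd; omega
          · rcases (Nat.Prime.dvd_mul hp.out).1 (show p ∣ 2 * 3 from hdvd) with h | h <;>
            · have := Nat.le_of_dvd (by norm_num) h; omega
          · have := Nat.le_of_dvd (by norm_num) (hp.out.dvd_of_dvd_pow (show p ∣ 2 ^ 3 from hdvd)); omega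
        have hgcd := pow_gcd_eq_one.2 ⟨h8, he'⟩
        rw [Nat.Coprime.pow_right e' ((Nat.Prime.coprime_iff_not_dvd hp.out).2 hd').symm, pow_one] at hgcd
        exact hζ1 hz hgcd
      have h6 : 5 * c ≤ 2 * ∑ φ, W φ := by
        refine h5.trans ?_
        rw [Finset.mul_sum]
        exact Finset.sum_le_sum fun φ _ => by rw [mul_comm 2]; exact Nat.mul_le_mul_left _ (hn φ)
      omega
  · -- the coprime case
    let S : Subgroup R := Subgroup.closure (Set.range fun r => σ r * r⁻¹) ⊔ Z
    have hdS : ∀ r, σ r * r⁻¹ ∈ S := fun r => Subgroup.mem_sup_left (Subgroup.subset_closure ⟨r, rfl⟩)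
    have hZS : Z ≤ S := le_sup_right
    have hSn : S.Normal := ⟨fun s hs g => by
      rw [show g * s * g⁻¹ = ⁅g, s⁆ * s by simp [commutatorElement_def, mul_assoc]]
      exact mul_mem (hZS (hcomm g s)) hs⟩
    have hSσ : ∀ s ∈ S, σ s ∈ S := fun s hs => by
      rw [← inv_mul_cancel_right (σ s) s]
      exact mul_mem (hdS s) hs
    have hCS : ∀ c ∈ C, ∀ s ∈ S, c * s = s * c := by
      intro c hc
      have h : S ≤ Subgroup.centralizer {c} := by
        refine sup_le ((Subgroup.closure_le _).2 ?_) fun z hz =>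
          Subgroup.mem_centralizer_singleton_iff.2 (hcen z hz c).symm
        rintro _ ⟨r, rfl⟩
        rw [SetLike.mem_coe, Subgroup.mem_centralizer_singleton_iff]
        have h1 : ⁅c, σ r⁆ = ⁅c, r⁆ := by
          conv_rhs => rw [← hσZ _ (hcomm c r), map_commutatorElement, hCmem.1 hc]
        have h2 : ⁅c, σ r⁆ = ⁅c, σ r * r⁻¹⁆ * ⁅c, r⁆ := by
          have e : ⁅c, σ r * r⁻¹ * r⁆ =
              ⁅c, σ r * r⁻¹⁆ * ((σ r * r⁻¹) * ⁅c, r⁆ * (σ r * r⁻¹)⁻¹) := by
            simp only [commutatorElement_def]; group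
          rwa [inv_mul_cancel_right, hcen _ (hcomm c r), mul_inv_cancel_right] at e
        rw [h1, right_eq_mul] at h2
        exact (commutatorElement_eq_one_iff_mul_comm.1 h2).symm
      exact fun s hs => (Subgroup.mem_centralizer_singleton_iff.1 (h hs)).symm
    have hgen : ∀ r, ∃ c ∈ C, ∃ s ∈ S, r = c * s := by
      intro r
      let Y := {y : R // r⁻¹ * y ∈ S}
      letI : MulAction (Subgroup.zpowers σ) Y :=
        { smul := fun g y => ⟨(g : MulAut R) y.1, by
            obtain ⟨i, hi⟩ := mem_powers_iff_mem_zpowers.2 g.2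
            show r⁻¹ * (g : MulAut R) y.1 ∈ S
            rw [← hi]
            show r⁻¹ * (σ ^ i) y.1 ∈ S
            clear hi
            induction i with
            | zero => exact y.2
            | succ i ih =>
              rw [pow_succ', MulAut.mul_apply]
              have e : r⁻¹ * σ ((σ ^ i) y.1) =
                  r⁻¹ * (σ r * r⁻¹) * r * σ (r⁻¹ * (σ ^ i) y.1) := by
                rw [map_mul, map_inv]; group
              rw [e]
              refine mul_mem ?_ (hSσ _ ih)
              simpa using hSn.conj_mem _ (hdS r) r⁻¹⟩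
          one_smul := fun y => rfl
          mul_smul := fun g g' y => rfl }
      have hcard : Nat.card Y = Nat.card S := Nat.card_congr
        { toFun := fun y => ⟨r⁻¹ * y.1, y.2⟩
          invFun := fun s => ⟨r * s.1, by rw [inv_mul_cancel_left]; exact s.2⟩
          left_inv := fun y => Subtype.ext (mul_inv_cancel_left r y.1)
          right_inv := fun s => Subtype.ext (inv_mul_cancel_left r s.1) }
      haveI : Finite Y := Subtype.finite
      obtain ⟨y, hy⟩ := hPG.nonempty_fixed_point_of_prime_not_dvd_card Y (by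
        rw [hcard]
        intro h
        obtain ⟨n, hn⟩ := IsPGroup.iff_card.1 (hR.to_subgroup S)
        rw [hn] at h
        exact hpq ((Nat.prime_dvd_prime_iff_eq hp.out hq.out).1 (hp.out.dvd_of_dvd_pow h)).symm)
      refine ⟨y.1, congrArg Subtype.val (hy ⟨σ, Subgroup.mem_zpowers σ⟩), (r⁻¹ * y.1)⁻¹, inv_mem y.2, ?_⟩
      group
    have hcenS : ∀ s : S, s ∈ Subgroup.center S ↔ (s : R) ∈ Z := by
      intro s
      rw [Subgroup.mem_center_iff]
      constructor
      · intro h
        refine Subgroup.mem_center_iff.2 fun t => ?_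
        obtain ⟨c, hc, s', hs', rfl⟩ := hgen t
        have h1 : s' * (s : R) = s * s' := congrArg Subtype.val (h ⟨s', hs'⟩)
        rw [mul_assoc, h1, ← mul_assoc, hCS c hc _ s.2, mul_assoc]
      · exact fun h t => Subtype.ext (hcen _ h t)
    let τ : MulAut S := CfsgLib.HallHigmanB.restrictAut σ S hSσ
    have hτ : ∀ s : S, ((τ s : S) : R) = σ (s : R) := fun s => rfl
    refine regular_bound (S := S) hp5 ?_ (fun s t => (hcenS _).2 (hcomm _ _)) ?_ ?_ τ ?_ ?_
      (finrank k V) V rfl hN (L.comp S.subtype) X hX (fun s => hXL s) ?_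
    · intro h
      obtain ⟨c, hc⟩ := Subgroup.card_subgroup_dvd_card S
      exact hRk (by rw [hc, Nat.cast_mul, h, zero_mul])
    · intro h
      have h1 : σ r₁ * r₁⁻¹ ∈ Z := (hcenS ⟨_, hdS r₁⟩).1 (h ▸ Subgroup.mem_top _)
      exact hr₁ (hA r₁ h1)
    · intro K hKn hK
      haveI := hKn
      haveI : Group.IsNilpotent S := (hR.to_subgroup S).isNilpotent
      haveI : Nontrivial (Subgroup.center S ⊓ K : Subgroup S) := by
        rw [Subgroup.nontrivial_iff_ne_bot]
        rw [inf_comm]
        exact CfsgLib.PGroup.inf_center_ne_bot (hR.to_subgroup S) K hK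
      obtain ⟨z, hz⟩ := exists_ne (1 : (Subgroup.center S ⊓ K : Subgroup S))
      exact ⟨z, z.2.2, z.2.1, fun h => hz (Subtype.ext h)⟩
    · refine MulEquiv.ext fun s => Subtype.ext ?_
      rw [CfsgLib.HallHigmanB.restrictAut_pow_coe, hσ]
      rfl
    · intro s hs
      rw [hcenS, Subgroup.coe_mul, Subgroup.coe_inv, hτ] at hs
      rw [hcenS]
      have h1 : σ (s : R) * (s : R)⁻¹ ∈ Z := by
        have := (inferInstance : Z.Normal).conj_mem _ hs (s : R)
        simpa [mul_assoc] using this
      refine Subgroup.mem_center_iff.2 fun t => ?_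
      obtain ⟨c, hc, s', hs', rfl⟩ := hgen t
      rw [mul_assoc, ← hCS (s : R) (hA _ h1) s' hs', ← mul_assoc, hCS c hc _ s.2, mul_assoc]
    · intro z hz
      obtain ⟨a, ha, h⟩ := hscal1 _ ((hcenS z).1 hz)
      exact ⟨a, fun h1 => ha fun h2 => h1 (Subtype.ext h2), h⟩

end CfsgLib.FixedHalf
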