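import Mathlib
import Cfsg.Agent.FixedHalf.Abelian
import Cfsg.Agent.FixedHalf.ClassTwo
import Cfsg.Agent.Constrained.Fitting

/-!
An element of prime order at least five generating a solvable irreducible linear group as a normal
subgroup fixes less than half of the space.
-/

set_option autoImplicit false

open Module Cfsg

open scoped commutatorElement

namespace CfsgLib.FixedHalf

universe u v w

variable {k : Type w} [Field k] [IsAlgClosed k]

/-- The irreducible case over an algebraically closed field. -/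
theorem irreducible_bound {ℓ : ℕ} [Fact ℓ.Prime] [CharP k ℓ] {V : Type v} [AddCommGroup V] [Module k V] [FiniteDimensional k V] [Nontrivial V]
    {G : Type u} [Group G] [Finite G] [Group.IsSolvable G] {p : ℕ} [hp : Fact p.Prime] (hp5 : 4 < p)
    (L : G →* Module.End k V) (hinj : Function.Injective L)
    (hsimp : ∀ U : Submodule k V, (∀ g, U.map (L g) ≤ U) → U = ⊥ ∨ U = ⊤)
    {x : G} (hx1 : x ≠ 1) (hxp : x ^ p = 1) (hgen : Subgroup.normalClosure ({x} : Set G) = ⊤) :
    2 * finrank k (LinearMap.ker (L x - 1)) < finrank k V := by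
  classical
  by_contra hbound
  have habs : ∀ (A : Subgroup G) [A.Normal], (∀ a ∈ A, ∀ b ∈ A, a * b = b * a) →
      ∀ a ∈ A, ∃ c : k, L a = c • 1 := fun A _ hA =>
    (blocks_or_scalar (ℓ := ℓ) hp.out hp5 L hinj hsimp hxp hgen A hA).resolve_left hbound
  have hxs : ¬ ∃ c : k, L x = c • 1 := by
    rintro ⟨c, hc⟩
    refine hbound ?_
    have hc1 : c ≠ 1 := fun h => hx1 (hinj (by rw [hc, h, one_smul, map_one]))
    have hker : LinearMap.ker (L x - 1) = ⊥ := by
      refine (Submodule.eq_bot_iff _).2 fun v hv => ?_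
      rw [LinearMap.mem_ker, LinearMap.sub_apply, hc, LinearMap.smul_apply, Module.End.one_apply,
        sub_eq_zero] at hv
      by_contra hv0
      exact hc1 (smul_left_injective k hv0 (by simpa using hv))
    rw [hker, finrank_bot, mul_zero]
    exact finrank_pos
  -- some core is not centralised
  obtain ⟨q, hq, hqx⟩ : ∃ q : ℕ, q.Prime ∧ ∃ r ∈ pCore q G, x * r * x⁻¹ ≠ r := by
    by_contra h
    push Not at h
    set F := fittingSubgroup G with hF
    set C := Subgroup.centralizer (F : Set G) with hC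
    have hxC : x ∈ C := by
      have hle : F ≤ Subgroup.centralizer {x} := by
        rw [hF, CfsgLib.Constrained.fitting_eq_iSup_pCore]
        exact iSup₂_le fun q hq r hr => Subgroup.mem_centralizer_singleton_iff.2
          (mul_inv_eq_iff_eq_mul.1 (h q hq r hr)).symm
      exact Subgroup.mem_centralizer_iff.2 fun r hr => Subgroup.mem_centralizer_singleton_iff.1 (hle hr)
    have hCF : C ≤ F := CfsgLib.Constrained.centralizer_fitting_le
    exact hxs (habs C (fun a ha b hb => (Subgroup.mem_centralizer_iff.1 ha b (hCF hb)).symm) x hxC)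
  haveI : Fact q.Prime := ⟨hq⟩
  obtain ⟨r₀, hr₀, hr₀x⟩ := hqx
  set R := pCore q G with hRdef
  have hR : IsPGroup q R := CfsgLib.Constrained.isPGroup_pCore
  have hRk : (Nat.card R : k) ≠ 0 := by
    intro h
    rw [CharP.cast_eq_zero_iff k ℓ] at h
    obtain ⟨n, hn⟩ := IsPGroup.iff_card.1 hR
    rw [hn] at h
    have hℓq : ℓ = q := (Nat.prime_dvd_prime_iff_eq Fact.out hq).1 ((Fact.out : ℓ.Prime).dvd_of_dvd_pow h)
    have hbot := normal_pgroup_eq_bot (ℓ := ℓ) L hinj hsimp R (hℓq ▸ hR)
    rw [hbot, Subgroup.mem_bot] at hr₀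
    exact hr₀x (by rw [hr₀, mul_one, mul_inv_cancel])
  have hcharscal : ∀ (K : Subgroup R) [K.Characteristic], (∀ a ∈ K, ∀ b ∈ K, a * b = b * a) →
      ∀ a ∈ K, ∃ c : k, L (a : G) = c • 1 := by
    intro K _ hK a ha
    refine habs (K.map R.subtype) ?_ (a : G) ⟨a, ha, rfl⟩
    rintro _ ⟨b, hb, rfl⟩ _ ⟨c, hc, rfl⟩
    exact congrArg Subtype.val (hK b hb c hc)
  set Z := Subgroup.center R with hZ
  have hscal : ∀ z ∈ Z, ∃ c : k, L (z : G) = c • 1 :=
    hcharscal Z fun a _ b hb => Subgroup.mem_center_iff.1 hb a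
  have hscalZ : ∀ a : R, (∃ c : k, L (a : G) = c • 1) → a ∈ Z := by
    rintro a ⟨c, hc⟩
    refine Subgroup.mem_center_iff.2 fun b => Subtype.ext (hinj ?_)
    rw [Subgroup.coe_mul, Subgroup.coe_mul, map_mul, map_mul, hc, mul_smul_comm, mul_one, smul_mul_assoc,
      one_mul]
  haveI : Group.IsNilpotent R := hR.isNilpotent
  set Z₂ := Subgroup.upperCentralSeries R 2 with hZ₂
  have hZ₂mem : ∀ a, a ∈ Z₂ ↔ ∀ b, a * b * a⁻¹ * b⁻¹ ∈ Z := fun a => by
    rw [hZ, ← Subgroup.upperCentralSeries_one]
    exact Subgroup.mem_upperCentralSeries_succ_iff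
  have hDscal : ∀ d ∈ commutator R ⊓ Z₂, d ∈ Z := by
    have hcomm : ∀ d ∈ Z₂, commutator R ≤ Subgroup.centralizer {d} := by
      intro d hd
      rw [commutator_def, Subgroup.commutator_le]
      intro a _ b _
      have hc : ∀ a : R, ∃ z ∈ Z, d * a * d⁻¹ = z * a := fun a =>
        ⟨_, (hZ₂mem d).1 hd a, by group⟩
      obtain ⟨z, hz, hza⟩ := hc a
      obtain ⟨z', hz', hzb⟩ := hc b
      rw [Subgroup.mem_centralizer_singleton_iff]
      have h1 : d * ⁅a, b⁆ * d⁻¹ = ⁅a, b⁆ := by
        have e : d * ⁅a, b⁆ * d⁻¹ = ⁅d * a * d⁻¹, d * b * d⁻¹⁆ := by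
          simp only [commutatorElement_def]; group
        rw [e, hza, hzb]
        have hz1 := fun t => Subgroup.mem_center_iff.1 hz t
        have hz2 := fun t => Subgroup.mem_center_iff.1 hz' t
        calc ⁅z * a, z' * b⁆ = z * a * (z' * b) * (a⁻¹ * z⁻¹) * (b⁻¹ * z'⁻¹) := by
              simp only [commutatorElement_def, mul_inv_rev]
          _ = z * (a * z') * b * a⁻¹ * (z⁻¹ * b⁻¹) * z'⁻¹ := by group
          _ = z * (z' * a) * b * a⁻¹ * (b⁻¹ * z⁻¹) * z'⁻¹ := by
              rw [hz2 a, (show Commute b⁻¹ z from hz1 b⁻¹).inv_right.eq]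
          _ = (z * z') * ⁅a, b⁆ * (z' * z)⁻¹ := by simp only [commutatorElement_def]; group
          _ = _ := by
              rw [← Subgroup.mem_center_iff.1 (mul_mem hz hz') ⁅a, b⁆, hz1 z', mul_inv_cancel_right]
      exact (mul_inv_eq_iff_eq_mul.1 h1).symm
    intro d hd
    refine hscalZ d (hcharscal (commutator R ⊓ Z₂) ?_ d hd)
    exact fun a ha b hb => Subgroup.mem_centralizer_singleton_iff.1 (hcomm b hb.2 ha.1)
  have hclass : ∀ a b : R, ⁅a, b⁆ ∈ Z := by
    have h : commutator R ≤ Z := by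
      by_contra hle
      set Q := (commutator R).map (QuotientGroup.mk' Z) with hQ
      haveI : Q.Normal := Subgroup.Normal.map inferInstance _ (QuotientGroup.mk'_surjective Z)
      have hQ0 : Q ≠ ⊥ := by
        rw [hQ, Ne, Subgroup.map_eq_bot_iff, QuotientGroup.ker_mk']
        exact hle
      refine CfsgLib.PGroup.inf_center_ne_bot (hR.to_quotient Z) Q hQ0 ((Subgroup.eq_bot_iff_forall _).2 ?_)
      rintro _ ⟨⟨d, hd, rfl⟩, hc⟩
      refine (QuotientGroup.eq_one_iff d).2 (hDscal d ⟨hd, (hZ₂mem d).2 fun b => ?_⟩)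
      have h1 := Subgroup.mem_center_iff.1 hc (QuotientGroup.mk' Z b)
      rw [← QuotientGroup.eq_one_iff (N := Z)]
      simp only [QuotientGroup.mk_mul, QuotientGroup.mk_inv]
      rw [QuotientGroup.mk'_apply, QuotientGroup.mk'_apply] at h1
      rw [← h1, mul_inv_cancel_right, mul_inv_cancel]
    exact fun a b => h (Subgroup.commutator_mem_commutator (Subgroup.mem_top a) (Subgroup.mem_top b))
  set σ : MulAut R := MulAut.conjNormal x with hσdef
  have hσp : σ ^ p = 1 := by rw [hσdef, ← map_pow, hxp, map_one]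
  have hσ1 : σ ≠ 1 := fun h => hr₀x (by
    have := congrArg (fun f : MulAut R => ((f ⟨r₀, hr₀⟩ : R) : G)) h
    simpa [σ] using this)
  refine hbound (class_two_bound (p := p) (q := q) hp5 hR hRk (L.comp R.subtype)
    (hinj.comp R.subtype_injective) hclass (fun z hz => hscal z hz) σ hσp hσ1 (L x)
    (by rw [← map_pow, hxp, map_one]) fun r => ?_)
  show L x * L (r : G) = L ((σ r : R) : G) * L x
  rw [← map_mul, ← map_mul, hσdef, MulAut.conjNormal_apply, inv_mul_cancel_right]

/-- No normal subgroup with zero norm: the general case over an algebraically closed field. -/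
theorem norm_zero_bound {ℓ : ℕ} [Fact ℓ.Prime] [CharP k ℓ] {G : Type u} [Group G] [Finite G] [Group.IsSolvable G] {p : ℕ} [hp : Fact p.Prime]
    (hp5 : 4 < p) (R : Subgroup G) [Fintype R] (hRk : (Nat.card R : k) ≠ 0)
    {x : G} (hxp : x ^ p = 1) (hgen : Subgroup.normalClosure ({x} : Set G) = ⊤) :
    ∀ (d : ℕ) (V : Type v) [AddCommGroup V] [Module k V] [FiniteDimensional k V], finrank k V = d → 0 < d →
      ∀ L : G →* Module.End k V, ∑ r : R, L (r : G) = 0 →
      2 * finrank k (LinearMap.ker (L x - 1)) < d := by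
  intro d
  induction d using Nat.strong_induction_on with
  | _ d IH =>
  intro V _ _ _ hd hd0 L hsum
  haveI : Nontrivial V := Module.nontrivial_of_finrank_pos (R := k) (hd ▸ hd0)
  by_cases hred : ∃ U : Submodule k V, U ≠ ⊥ ∧ U ≠ ⊤ ∧ ∀ g, U.map (L g) ≤ U
  · obtain ⟨U, hU0, hU1, hUL⟩ := hred
    have hL' : ∀ g, U ≤ U.comap (L g) := fun g v hv => hUL g ⟨v, hv, rfl⟩
    let L₂ : G →* Module.End k (V ⧸ U) :=
      { toFun := fun g => U.mapQ U (L g) (hL' g)
        map_one' := Submodule.linearMap_qext _ (LinearMap.ext fun v => by simp)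
        map_mul' := fun a b => Submodule.linearMap_qext _ (LinearMap.ext fun v => by simp) }
    let L₁ : G →* Module.End k U := CfsgLib.HallHigmanB.restrictRep L U fun g v hv => hL' g hv
    have h1 : 0 < finrank k U := Nat.pos_of_ne_zero fun h => hU0 (Submodule.finrank_eq_zero.1 h)
    have h2 := Submodule.finrank_lt hU1
    have h3 := Submodule.finrank_quotient_add_finrank U
    have hs : ∀ v, ∑ r : R, L (r : G) v = 0 := fun v => by
      rw [← LinearMap.sum_apply, hsum, LinearMap.zero_apply]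
    have e1 := IH (finrank k U) (by omega) U rfl h1 L₁ (LinearMap.ext fun v => Subtype.ext (by
      rw [LinearMap.sum_apply, AddSubmonoidClass.coe_finsetSum]
      exact hs v))
    have e2 := IH (finrank k (V ⧸ U)) (by omega) (V ⧸ U) rfl (by omega) L₂
      (Submodule.linearMap_qext _ (LinearMap.ext fun v => by
        rw [LinearMap.comp_apply, LinearMap.sum_apply]
        show ∑ r : R, U.mkQ (L (r : G) v) = 0
        rw [← map_sum, hs, map_zero]))
    have e3 := finrank_ker_sub_one_le_add (L x) U (hL' x)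
    have e4 : finrank k (LinearMap.ker (L₁ x - 1)) = finrank k (LinearMap.ker ((L x).restrict (hL' x) - 1)) := rfl
    have e5 : finrank k (LinearMap.ker (L₂ x - 1)) = finrank k (LinearMap.ker (U.mapQ U (L x) (hL' x) - 1)) := rfl
    omega
  push Not at hred
  have hsimp : ∀ U : Submodule k V, (∀ g, U.map (L g) ≤ U) → U = ⊥ ∨ U = ⊤ := by
    intro U hU
    by_contra h
    push Not at h
    obtain ⟨g, hg⟩ := hred U h.1 h.2
    exact hg (hU g)
  let f := QuotientGroup.mk' L.ker
  let L' : G ⧸ L.ker →* Module.End k V := QuotientGroup.lift L.ker L le_rfl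
  have hf : Function.Surjective f := QuotientGroup.mk'_surjective _
  haveI : Group.IsSolvable (G ⧸ L.ker) := Group.isSolvable_of_surjective hf
  have hinj : Function.Injective L' := by
    rw [injective_iff_map_eq_one]
    intro y hy
    obtain ⟨g, rfl⟩ := QuotientGroup.mk_surjective y
    exact (QuotientGroup.eq_one_iff g).2 hy
  have hgen' : Subgroup.normalClosure ({f x} : Set (G ⧸ L.ker)) = ⊤ := by
    rw [← Set.image_singleton, ← Subgroup.map_normalClosure _ f hf, hgen,
      Subgroup.map_top_of_surjective f hf]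
  have hx1 : f x ≠ 1 := by
    intro h
    rw [h, Subgroup.normalClosure_eq_bot_iff.2 subset_rfl] at hgen'
    have htriv : ∀ g, L g = 1 := fun g => by
      have h1 : f g = 1 := Subgroup.mem_bot.1 (hgen' ▸ Subgroup.mem_top _)
      exact (QuotientGroup.eq_one_iff g).1 h1
    simp only [htriv, Finset.sum_const, Finset.card_univ, ← Nat.cast_smul_eq_nsmul k, smul_eq_zero,
      one_ne_zero, or_false] at hsum
    exact hRk (by rwa [Nat.card_eq_fintype_card])
  have hsimp' : ∀ U : Submodule k V, (∀ y, U.map (L' y) ≤ U) → U = ⊥ ∨ U = ⊤ :=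
    fun U hU => hsimp U fun g => hU (f g)
  subst hd
  have hxp' : (f x) ^ p = 1 := by rw [← map_pow, hxp, map_one]
  have h := irreducible_bound (ℓ := ℓ) (x := f x) hp5 L' hinj hsimp' hx1 hxp' hgen'
  have e : L' (f x) = L x := QuotientGroup.lift_mk' L.ker le_rfl x
  rw [e] at h
  exact h

end CfsgLib.FixedHalf
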